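import Cfsg.Agent.Lib.Suzuki.RM
import Cfsg.Agent.Lib.Suzuki.Star
import Cfsg.Agent.Lib.Suzuki.CN
import Cfsg.Agent.Lib.KnownSimple.SchurLocal

/-! Generic part of the computation of the Schur multiplier of the Suzuki groups: commutators in a central
extension, and the norm argument. -/

set_option autoImplicit false

namespace Cfsg.Agent.Lib.Suzuki

open RM
open scoped commutatorElement

section generic

variable {Γ G : Type*} [Group Γ] [Group G] {σ : Γ →* G}

theorem comm_mul_left {x x' w : Γ} (h : ⁅x', w⁆ * x = x * ⁅x', w⁆) : ⁅x * x', w⁆ = ⁅x', w⁆ * ⁅x, w⁆ := by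
  have e : ⁅x', w⁆ * ⁅x, w⁆ = (⁅x', w⁆ * x) * w * x⁻¹ * w⁻¹ := by
    rw [commutatorElement_def x w]; group
  rw [e, h]
  simp only [commutatorElement_def]
  group

theorem comm_mul_right {x w w' : Γ} (h : ⁅x, w'⁆ * w = w * ⁅x, w'⁆) : ⁅x, w * w'⁆ = ⁅x, w⁆ * ⁅x, w'⁆ := by
  have h' : ⁅x, w'⁆ * w⁻¹ = w⁻¹ * ⁅x, w'⁆ := by
    rw [eq_inv_mul_iff_mul_eq, ← mul_assoc, ← h, mul_assoc, mul_inv_cancel, mul_one]
  have e : ⁅x, w⁆ * ⁅x, w'⁆ = x * w * x⁻¹ * (w⁻¹ * ⁅x, w'⁆) := by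
    rw [commutatorElement_def x w]; group
  rw [e, ← h']
  simp only [commutatorElement_def]
  group

theorem comm_congr (hK : σ.ker ≤ Subgroup.center Γ) {x x' w w' : Γ} (h1 : σ x = σ x') (h2 : σ w = σ w') :
    ⁅x, w⁆ = ⁅x', w'⁆ := by
  have hk : x' * x⁻¹ ∈ σ.ker := by rw [MonoidHom.mem_ker, map_mul, map_inv, h1, mul_inv_cancel]
  have hl : w' * w⁻¹ ∈ σ.ker := by rw [MonoidHom.mem_ker, map_mul, map_inv, h2, mul_inv_cancel]
  obtain ⟨k, hk', rfl⟩ : ∃ k ∈ σ.ker, x' = k * x := ⟨_, hk, by group⟩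
  obtain ⟨l, hl', rfl⟩ : ∃ l ∈ σ.ker, w' = l * w := ⟨_, hl, by group⟩
  have e1 : ∀ y : Γ, y * k = k * y := fun y => Subgroup.mem_center_iff.mp (hK hk') y
  have e2 : ∀ y : Γ, y * l = l * y := fun y => Subgroup.mem_center_iff.mp (hK hl') y
  rw [comm_mul_left (e1 _), comm_mul_right (e2 _)]
  have e5 : ⁅k, l * w⁆ = 1 := by
    rw [commutatorElement_eq_one_iff_mul_comm]; exact (e1 _).symm
  have e6 : ⁅x, l⁆ = 1 := by
    rw [commutatorElement_eq_one_iff_mul_comm]; exact e2 _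
  rw [e5, e6, mul_one, one_mul]

/-- The norm. -/
theorem exists_norm {F X : Type*} [Field F] [Fintype F] [CommGroup X] {n : ℕ} (hF : Fintype.card F = 2 ^ n) (hn : 2 < n)
    (hX : ∀ x : X, x * x = 1) (act : Fˣ → X →* X) (c : F → F → X)
    (hc1 : ∀ a a' b, c (a + a') b = c a b * c a' b) (hc2 : ∀ a b b', c a (b + b') = c a b * c a b')
    (hact : ∀ (t : Fˣ) a b, act t (c a b) = c ((t : F) * a) ((t : F) * b)) {y : X} (hy : ∀ t, act t y = y) :
    ∃ N : X →* X, N y = y ∧ ∀ a b, N (c a b) = 1 := by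
  classical
  have hq : Fintype.card Fˣ = 2 ^ n - 1 := by rw [Fintype.card_units, hF]
  refine ⟨∏ t : Fˣ, act t, ?_, fun a b => ?_⟩
  · rw [MonoidHom.finset_prod_apply, Finset.prod_congr rfl (fun t _ => hy t), Finset.prod_const, Finset.card_univ, hq]
    obtain ⟨k, rfl⟩ : ∃ k, n = k + 1 := ⟨n - 1, by omega⟩
    have h2 : 2 ^ (k + 1) - 1 = 2 * (2 ^ k - 1) + 1 := by
      have := Nat.one_le_two_pow (n := k)
      rw [pow_succ]
      omega
    rw [h2, pow_succ, pow_mul, pow_two, hX, one_pow, one_mul]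
  · rw [MonoidHom.finset_prod_apply, Finset.prod_congr rfl (fun t _ => hact t a b)]
    let B : F →+ F →+ Additive X := AddMonoidHom.mk' (fun u => AddMonoidHom.mk' (fun v => Additive.ofMul (c u v))
      (fun v v' => by rw [hc2]; rfl)) (fun u u' => by
        ext v
        show Additive.ofMul (c (u + u') v) = Additive.ofMul (c u v) + Additive.ofMul (c u' v)
        rw [hc1]; rfl)
    have h1 : PD 2 (fun t : F => B (t * a) (t * b)) :=
      PD.leibniz B 2 1 1 _ _ rfl (PD_add_hom (AddMonoidHom.mulRight a)) (PD_add_hom (AddMonoidHom.mulRight b))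
    have h2 : ∀ x : Additive X, x + x = 0 := fun x => hX (Additive.toMul x)
    have h3 := sum_units_eq_zero hF hn h2 h1 (by simp)
    have h4 : Additive.ofMul (∏ t : Fˣ, c ((t : F) * a) ((t : F) * b)) = 0 := by
      rw [ofMul_prod]
      exact h3
    exact h4

end generic

end Cfsg.Agent.Lib.Suzuki
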