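import Cfsg.Agent.Lib.Suzuki.Charpoly

/-! Groups of unbounded order with the prime graph of the Suzuki group. -/

set_option autoImplicit false

namespace Cfsg.Agent.Lib.Suzuki

open Matrix SemidirectProduct

section generic
variable {N G : Type*} [Group N] [Group G] [Finite N] [Finite G] (φ : G →* MulAut N)

theorem comm_of_sq {N : Type*} [Group N] (hN : ∀ x : N, x * x = 1) (x y : N) : x * y = y * x := by
  have hinv : ∀ z : N, z⁻¹ = z := fun z => inv_eq_of_mul_eq_one_left (hN z)
  have := hN (x * y)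
  calc x * y = (x * y)⁻¹ := (hinv _).symm
    _ = y⁻¹ * x⁻¹ := _root_.mul_inv_rev x y
    _ = y * x := by rw [hinv, hinv]

theorem sd_dvd (hN : ∀ x : N, x * x = 1) {r : ℕ} (hr : r.Prime) (h2 : 2 ∣ Nat.card G) :
    r ∣ Nat.card G ↔ r ∣ Nat.card (N ⋊[φ] G) := by
  rw [SemidirectProduct.card]
  constructor
  · intro h
    exact Dvd.dvd.mul_left h _
  · intro h
    rcases (Nat.Prime.dvd_mul hr).mp h with h | h
    · haveI : Fact r.Prime := ⟨hr⟩
      obtain ⟨x, hx⟩ := exists_prime_orderOf_dvd_card' (G := N) r h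
      have h3 : x ^ 2 = 1 := by rw [sq, hN]
      have h4 : r ∣ 2 := by
        rw [← hx]
        exact orderOf_dvd_of_pow_eq_one h3
      have h5 : r = 2 := (Nat.prime_dvd_prime_iff_eq hr Nat.prime_two).mp h4
      rw [h5]
      exact h2
    · exact h

/-- The element `y ^ d`, with `d` the order of the image, lies in the normal subgroup. -/
theorem sd_pow_left (y : N ⋊[φ] G) {d : ℕ} (hd : y.right ^ d = 1) : y ^ d = inl (y ^ d).left := by
  have h1 : (y ^ d).right = 1 := by
    have : rightHom (y ^ d) = (rightHom y) ^ d := map_pow _ _ _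
    rw [rightHom_eq_right] at this
    rw [this, hd]
  rw [← inl_left_mul_inr_right (y ^ d)]
  simp [h1]

theorem sd_commute_fix (hN : ∀ x : N, x * x = 1) (y : N ⋊[φ] G) (w : N)
    (h : y * inl w = inl w * y) : φ y.right w = w := by
  have h1 := congrArg SemidirectProduct.left h
  rw [mul_left, mul_left] at h1
  simp only [left_inl, right_inl, map_one, MulAut.one_apply] at h1
  rw [comm_of_sq hN w] at h1
  exact mul_left_cancel h1

/-- The key step: elements of order `2 s` in the semidirect product come from `G`. -/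
theorem sd_two {s : ℕ} (hN : ∀ x : N, x * x = 1)
    (hfix : ∀ (g : G) (w : N), w ≠ 1 → φ g w = w → g ^ 4 = 1)
    (hs : s.Prime) (hs2 : s ≠ 2) (y : N ⋊[φ] G) (hy : orderOf y = 2 * s) :
    ∃ x : G, orderOf x = 2 * s := by
  set g := y.right with hg
  set d := orderOf g with hd
  have hgd : g ^ d = 1 := pow_orderOf_eq_one g
  have hd1 : d ∣ 2 * s := by
    rw [← hy]
    exact orderOf_map_dvd (rightHom : N ⋊[φ] G →* G) y
  -- `y ^ (2 d) = 1`
  have hyd := sd_pow_left φ y hgd
  have h2d : y ^ (2 * d) = 1 := by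
    rw [mul_comm, pow_mul, hyd, ← map_pow, sq, hN, map_one]
  have hd2 : 2 * s ∣ 2 * d := by
    rw [← hy]
    exact orderOf_dvd_of_pow_eq_one h2d
  have hsd : s ∣ d := Nat.dvd_of_mul_dvd_mul_left (by norm_num) hd2
  by_cases h2 : 2 ∣ d
  · refine ⟨g, Nat.dvd_antisymm hd1 ?_⟩
    have hc : Nat.Coprime 2 s := (Nat.coprime_primes Nat.prime_two hs).mpr (Ne.symm hs2)
    exact hc.mul_dvd_of_dvd_of_dvd h2 hsd
  · exfalso
    have hc : Nat.Coprime d 2 := ((Nat.Prime.coprime_iff_not_dvd Nat.prime_two).mpr h2).symm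
    have hds : d ∣ s := hc.dvd_of_dvd_mul_left hd1
    have hds' : d = s := Nat.dvd_antisymm hds hsd
    have hw : (y ^ d).left ≠ 1 := by
      intro h
      have : y ^ d = 1 := by
        rw [hyd, h, map_one]
      have h3 := orderOf_dvd_of_pow_eq_one this
      rw [hy, hds'] at h3
      have := Nat.le_of_dvd hs.pos h3
      have := hs.pos
      omega
    have hcomm : y * inl (y ^ d).left = inl (y ^ d).left * y := by
      rw [← hyd]
      exact (Commute.pow_right (Commute.refl y) d).eq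
    have hf := sd_commute_fix φ hN y _ hcomm
    have h4 := hfix g _ hw hf
    have h5 : d ∣ 4 := orderOf_dvd_of_pow_eq_one h4
    rw [hds'] at h5
    have h6 : s ∣ 2 ^ 2 := by simpa using h5
    have h7 := hs.dvd_of_dvd_pow h6
    exact hs2 ((Nat.prime_dvd_prime_iff_eq hs Nat.prime_two).mp h7)

theorem sd_order (hN : ∀ x : N, x * x = 1)
    (hfix : ∀ (g : G) (w : N), w ≠ 1 → φ g w = w → g ^ 4 = 1)
    {r s : ℕ} (hr : r.Prime) (hs : s.Prime) (hrs : r ≠ s) :
    (∃ x : G, orderOf x = r * s) ↔ ∃ y : N ⋊[φ] G, orderOf y = r * s := by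
  constructor
  · rintro ⟨x, hx⟩
    refine ⟨inr x, ?_⟩
    rw [← hx]
    exact orderOf_injective (inr : G →* N ⋊[φ] G) inr_injective x
  · rintro ⟨y, hy⟩
    by_cases hr2 : r = 2
    · subst hr2
      exact sd_two φ hN hfix hs (Ne.symm hrs) y hy
    by_cases hs2 : s = 2
    · subst hs2
      rw [mul_comm] at hy ⊢
      exact sd_two φ hN hfix hr hrs y hy
    -- both odd
    set g := y.right with hg
    set d := orderOf g with hd
    have hgd : g ^ d = 1 := pow_orderOf_eq_one g
    have hd1 : d ∣ r * s := by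
      rw [← hy]
      exact orderOf_map_dvd (rightHom : N ⋊[φ] G →* G) y
    have hyd := sd_pow_left φ y hgd
    have h2d : y ^ (2 * d) = 1 := by
      rw [mul_comm, pow_mul, hyd, ← map_pow, sq, hN, map_one]
    have hd2 : r * s ∣ 2 * d := by
      rw [← hy]
      exact orderOf_dvd_of_pow_eq_one h2d
    have hc : Nat.Coprime (r * s) 2 := by
      apply Nat.Coprime.mul_left
      · exact (Nat.coprime_primes hr Nat.prime_two).mpr hr2
      · exact (Nat.coprime_primes hs Nat.prime_two).mpr hs2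
    exact ⟨g, Nat.dvd_antisymm hd1 (hc.dvd_of_dvd_mul_left hd2)⟩

end generic

/-- A finite group in any universe is isomorphic to one in `Type`. -/
theorem exists_type_zero (H' : Type*) [Group H'] [Finite H'] :
    ∃ (H : Type) (_ : Group H) (_ : Fintype H), Nonempty (H ≃* H') := by
  let e := Finite.equivFin H'
  letI : Group (Fin (Nat.card H')) := e.symm.group
  exact ⟨Fin (Nat.card H'), inferInstance, inferInstance, ⟨e.symm.mulEquiv⟩⟩

variable {F : Type*} [Field F] {m : ℕ}

/-- The diagonal action of `GL₄` on a power of the natural module. -/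
def actE (k : ℕ) (g : GL (Fin 4) F) : (Fin k → Fin 4 → F) ≃+ (Fin k → Fin 4 → F) where
  toFun v i := (g : Matrix (Fin 4) (Fin 4) F) *ᵥ v i
  invFun v i := ((g⁻¹ : GL (Fin 4) F) : Matrix (Fin 4) (Fin 4) F) *ᵥ v i
  left_inv v := by
    ext i j
    simp [Matrix.mulVec_mulVec]
  right_inv v := by
    ext i j
    simp [Matrix.mulVec_mulVec]
  map_add' v w := by
    ext i j
    simp [Matrix.mulVec_add]

/-- The action as a homomorphism. -/
def phiE (k : ℕ) : GL (Fin 4) F →* MulAut (Multiplicative (Fin k → Fin 4 → F)) where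
  toFun g := (actE k g).toMultiplicative
  map_one' := by
    ext v i j
    simp [actE]
  map_mul' g h := by
    ext v i j
    simp [actE, Matrix.mulVec_mulVec]

section
variable [Fintype F] (hF : Fintype.card F = 2 ^ (2 * m + 1)) (hm : 1 ≤ m)
include hF hm

/-- Elements of the second model satisfy the isometry condition and the law. -/
theorem isSp_law_lie (g : Cfsg.Lie.Sz F (2 ^ (m + 1))) :
    IsSp ((g : GL (Fin 4) F) : Matrix (Fin 4) (Fin 4) F) ∧
      Cfsg.Lie.star4 ((g : GL (Fin 4) F) : Matrix (Fin 4) (Fin 4) F) =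
        theta m ((g : GL (Fin 4) F) : Matrix (Fin 4) (Fin 4) F) := by
  obtain ⟨g₀, rfl⟩ := (szEquiv hF hm).surjective g
  rw [szEquiv_coe]
  exact ⟨form_Sz hF hm g₀.2, law_Sz hF hm g₀.2⟩

/-- The groups of unbounded order with the prime graph of the Suzuki group. -/
theorem primeGraph_main (N₀ : ℕ) :
    ∃ (H : Type) (_ : Group H) (_ : Fintype H), N₀ < Fintype.card H ∧
      ((∀ r : ℕ, r.Prime → (r ∣ Nat.card ↥(Cfsg.Lie.Sz F (2 ^ (m + 1))) ↔ r ∣ Nat.card H)) ∧
      (∀ r s : ℕ, r.Prime → s.Prime → r ≠ s →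
        ((∃ x : ↥(Cfsg.Lie.Sz F (2 ^ (m + 1))), orderOf x = r * s) ↔ (∃ y : H, orderOf y = r * s)))) := by
  classical
  have h2F := two_zero hF
  let k := N₀ + 1
  let φ : Cfsg.Lie.Sz F (2 ^ (m + 1)) →* MulAut (Multiplicative (Fin k → Fin 4 → F)) :=
    (phiE k).comp (Cfsg.Lie.Sz F (2 ^ (m + 1))).subtype
  haveI : Finite (Cfsg.Lie.Sz F (2 ^ (m + 1))) := by
    haveI := finite_Sz hF hm
    exact Finite.of_equiv _ (szEquiv hF hm).toEquiv
  have hN : ∀ x : Multiplicative (Fin k → Fin 4 → F), x * x = 1 := by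
    intro x
    ext i j
    show (Multiplicative.toAdd x) i j + (Multiplicative.toAdd x) i j = 0
    grind
  have hfix : ∀ (g : Cfsg.Lie.Sz F (2 ^ (m + 1))) (w : Multiplicative (Fin k → Fin 4 → F)),
      w ≠ 1 → φ g w = w → g ^ 4 = 1 := by
    intro g w hw h
    obtain ⟨hsp, hlaw⟩ := isSp_law_lie hF hm g
    -- a nonzero component
    obtain ⟨i, hi⟩ : ∃ i, (Multiplicative.toAdd w) i ≠ 0 := by
      by_contra hcon
      push Not at hcon
      apply hw
      apply Multiplicative.toAdd.injective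
      ext i j
      rw [hcon i]
      rfl
    have h3 : ((g : GL (Fin 4) F) : Matrix (Fin 4) (Fin 4) F) *ᵥ (Multiplicative.toAdd w) i = (Multiplicative.toAdd w) i :=
      congrFun (congrArg Multiplicative.toAdd h) i
    have h4 := pow_four_of_fix (E := F) hF hsp hlaw (v := (Multiplicative.toAdd w) i) hi (by
      rw [show ((g : GL (Fin 4) F) : Matrix (Fin 4) (Fin 4) F).map (algebraMap F F) = ((g : GL (Fin 4) F) : Matrix (Fin 4) (Fin 4) F) from by
        ext a b
        simp]
      exact h3)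
    apply Subtype.ext
    apply Units.ext
    exact h4
  have h2G : 2 ∣ Nat.card (Cfsg.Lie.Sz F (2 ^ (m + 1))) := by
    rw [← Nat.card_congr (szEquiv hF hm).toEquiv, card_Sz hF hm]
    exact Dvd.dvd.mul_right (Dvd.dvd.mul_right (dvd_pow (dvd_pow_self 2 (by omega)) (by norm_num)) _) _
  haveI : Finite (Multiplicative (Fin k → Fin 4 → F) ⋊[φ] Cfsg.Lie.Sz F (2 ^ (m + 1))) :=
    Finite.of_equiv _ (SemidirectProduct.equivProd).symm
  obtain ⟨H, iG, iF, ⟨e⟩⟩ := exists_type_zero (Multiplicative (Fin k → Fin 4 → F) ⋊[φ] Cfsg.Lie.Sz F (2 ^ (m + 1)))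
  refine ⟨H, iG, iF, ?_, ?_, ?_⟩
  · rw [← Nat.card_eq_fintype_card, Nat.card_congr e.toEquiv, SemidirectProduct.card]
    have h1 : N₀ < Nat.card (Multiplicative (Fin k → Fin 4 → F)) := by
      have h3 : Nat.card (Multiplicative (Fin k → Fin 4 → F)) = (Fintype.card F ^ 4) ^ k := by
        rw [Nat.card_congr Multiplicative.toAdd, Nat.card_eq_fintype_card, Fintype.card_fun, Fintype.card_fun]
        simp
      rw [h3]
      have h5 : 1 < Fintype.card F ^ 4 := by
        rw [hF]
        exact Nat.one_lt_pow (by norm_num) (Nat.one_lt_pow (by omega) (by norm_num))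
      have h6 := Nat.lt_pow_self (n := k) h5
      omega
    have h4 : 0 < Nat.card (Cfsg.Lie.Sz F (2 ^ (m + 1))) := Nat.card_pos
    nlinarith
  · intro r hr
    rw [Nat.card_congr e.toEquiv]
    exact sd_dvd φ hN hr h2G
  · intro r s hr hs hrs
    rw [sd_order φ hN hfix hr hs hrs]
    constructor
    · rintro ⟨y, hy⟩
      exact ⟨e.symm y, by rw [MulEquiv.orderOf_eq]; exact hy⟩
    · rintro ⟨y, hy⟩
      exact ⟨e y, by rw [MulEquiv.orderOf_eq]; exact hy⟩

end

end Cfsg.Agent.Lib.Suzuki
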