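import Mathlib

/-! Functions of bounded degree on finite elementary abelian `2`-groups: iterated differences and the
vanishing of the sum over the whole space when the degree is below the dimension. -/

set_option autoImplicit false

namespace Cfsg.Agent.Lib.Suzuki.RM

variable {V W X Y Z : Type*} [AddCommGroup V] [AddCommGroup W] [AddCommGroup X] [AddCommGroup Y] [AddCommGroup Z]

/-- Functions of degree at most `d`, in terms of iterated differences. -/
def PD : ℕ → (V → X) → Prop
  | 0, f => ∀ x y, f x = f y
  | d + 1, f => ∀ v, PD d (fun x => f (x + v) - f x)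

theorem PD.comp_add {d : ℕ} {f : V → X} (h : PD d f) (g : W →+ V) : PD d (fun x => f (g x)) := by
  induction d generalizing f with
  | zero => exact fun x y => h _ _
  | succ d ih =>
    intro v
    have := ih (h (g v))
    simpa [map_add] using this

theorem PD.comp_left {d : ℕ} {f : V → X} (h : PD d f) (g : X →+ Y) : PD d (fun x => g (f x)) := by
  induction d generalizing f with
  | zero => exact fun x y => by show g (f x) = g (f y); rw [show f x = f y from h x y]
  | succ d ih =>
    intro v
    have := ih (h v)
    simpa [map_sub] using this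

theorem PD.shift {d : ℕ} {f : V → X} (h : PD d f) (v : V) : PD d (fun x => f (x + v)) := by
  induction d generalizing f with
  | zero => exact fun x y => h _ _
  | succ d ih =>
    intro w
    have := ih (h w)
    simpa [add_right_comm] using this

theorem PD.add {d : ℕ} {f g : V → X} (h : PD d f) (h' : PD d g) : PD d (fun x => f x + g x) := by
  induction d generalizing f g with
  | zero =>
    intro x y
    show f x + g x = f y + g y
    rw [show f x = f y from h x y, show g x = g y from h' x y]
  | succ d ih =>
    intro v
    have := ih (h v) (h' v)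
    have e : (fun x => f (x + v) + g (x + v) - (f x + g x)) = fun x => f (x + v) - f x + (g (x + v) - g x) := by
      funext x
      abel
    show PD d (fun x => f (x + v) + g (x + v) - (f x + g x))
    rw [e]
    exact this

theorem PD.const (c : X) (d : ℕ) : PD d (fun _ : V => c) := by
  induction d with
  | zero => exact fun _ _ => rfl
  | succ d ih =>
    intro v
    simpa using (PD.comp_left (ih) (AddMonoidHom.id X)).comp_left (0 : X →+ X)

theorem PD.mono {d : ℕ} {f : V → X} (h : PD d f) : PD (d + 1) f := by
  induction d generalizing f with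
  | zero =>
    intro v x y
    simp [h (x + v) x, h (y + v) y]
  | succ d ih =>
    intro v
    exact ih (h v)

theorem PD.of_le {d e : ℕ} {f : V → X} (hde : d ≤ e) (h : PD d f) : PD e f := by
  induction hde with
  | refl => exact h
  | step _ ih => exact ih.mono

/-- Additive maps have degree one. -/
theorem PD_add_hom (g : V →+ X) : PD 1 (fun x => g x) := by
  intro v x y
  simp [map_add]

/-- The Leibniz rule. -/
theorem PD.leibniz (B : X →+ Y →+ Z) (n : ℕ) : ∀ (a b : ℕ) (f : V → X) (g : V → Y), a + b = n → PD a f → PD b g →
    PD (a + b) (fun x => B (f x) (g x)) := by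
  induction n with
  | zero =>
    intro a b f g hn hf hg
    obtain ⟨rfl, rfl⟩ : a = 0 ∧ b = 0 := by omega
    intro x y
    show B (f x) (g x) = B (f y) (g y)
    rw [show f x = f y from hf x y, show g x = g y from hg x y]
  | succ n ih =>
    intro a b f g hn hf hg
    rcases a with _ | a
    · have e : ∀ x, f x = f 0 := fun x => hf x 0
      have := hg.comp_left (B (f 0))
      simpa [e] using this
    rcases b with _ | b
    · have e : ∀ x, g x = g 0 := fun x => hg x 0
      have := hf.comp_left (B.flip (g 0))
      simpa [e] using this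
    show PD (a + 1 + b + 1) _
    intro v
    have h1 := ih a (b + 1) (fun x => f (x + v) - f x) (fun x => g (x + v)) (by omega) (hf v) (hg.shift v)
    have h2 := ih (a + 1) b f (fun x => g (x + v) - g x) (by omega) hf (hg v)
    have h3 := (h1.of_le (show a + (b + 1) ≤ a + 1 + b by omega)).add h2
    convert h3 using 2
    simp only [map_sub, AddMonoidHom.sub_apply]
    abel

/-- The sum over the whole coordinate space vanishes below the dimension. -/
theorem sum_fin_eq_zero (hX : ∀ x : X, x + x = 0) : ∀ (k d : ℕ), d < k → ∀ f : (Fin k → ZMod 2) → X, PD d f →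
    ∑ x, f x = 0 := by
  intro k
  induction k with
  | zero => intro d hd; omega
  | succ k ih =>
    intro d hd f hf
    let e : (Fin (k + 1) → ZMod 2) := Fin.cons 1 0
    let g : (Fin k → ZMod 2) →+ (Fin (k + 1) → ZMod 2) :=
      { toFun := fun w => Fin.cons 0 w
        map_zero' := by
          funext i
          refine Fin.cases ?_ (fun j => ?_) i <;> simp
        map_add' := by
          intro w w'
          funext i
          refine Fin.cases ?_ (fun j => ?_) i <;> simp }
    have e1 : ∀ w : Fin k → ZMod 2, (Fin.cons 1 w : Fin (k + 1) → ZMod 2) = g w + e := by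
      intro w
      funext i
      refine Fin.cases ?_ (fun j => ?_) i
      · simp [g, e]
      · simp [g, e]
    have e2 : ∑ x, f x = ∑ w, (f (g w + e) - f (g w)) := by
      rw [← Equiv.sum_comp (Fin.consEquiv (fun _ => ZMod 2))]
      rw [Fintype.sum_prod_type_right]
      refine Finset.sum_congr rfl (fun w _ => ?_)
      show ∑ x : Fin 2, f (Fin.cons x w) = _
      rw [Fin.sum_univ_two]
      show f (Fin.cons 0 w) + f (Fin.cons 1 w) = _
      rw [e1 w]
      show f (g w) + f (g w + e) = _
      have := hX (f (g w))
      rw [sub_eq_add_neg, neg_eq_of_add_eq_zero_right this, add_comm]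
    rw [e2]
    rcases d with _ | d
    · refine Finset.sum_eq_zero (fun w _ => ?_)
      rw [show f (g w + e) = f (g w) from hf _ _, sub_self]
    · exact ih d (by omega) _ ((hf e).comp_add g)

section field

variable {F : Type*} [Field F] [Fintype F]

/-- The sum over a finite field of characteristic two vanishes below the dimension. -/
theorem sum_field_eq_zero {n d : ℕ} (hF : Fintype.card F = 2 ^ n) (hd : d < n) (hX : ∀ x : X, x + x = 0) {f : F → X}
    (hf : PD d f) : ∑ t, f t = 0 := by
  classical
  haveI : CharP F 2 := by
    have hn : n ≠ 0 := by omega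
    obtain ⟨p, hp⟩ := CharP.exists F
    haveI := hp
    obtain ⟨k, hpp, hk⟩ := FiniteField.card F p
    have hp2 : p = 2 := by
      have h3 : (k : ℕ) ≠ 0 := k.2.ne'
      have h4 : p ^ (k : ℕ) = 2 ^ n := by rw [← hk, hF]
      exact (Nat.prime_dvd_prime_iff_eq hpp Nat.prime_two).mp
        (hpp.dvd_of_dvd_pow (h4 ▸ dvd_pow_self p h3))
    exact hp2 ▸ hp
  letI := ZMod.algebra F 2
  haveI : Fact (Nat.Prime 2) := ⟨Nat.prime_two⟩
  have h1 := Module.card_eq_pow_finrank (K := ZMod 2) (V := F)
  rw [hF, ZMod.card] at h1
  have h2 : n = Module.finrank (ZMod 2) F := Nat.pow_right_injective (le_refl 2) h1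
  let b := (Module.finBasis (ZMod 2) F).equivFun
  have h3 : ∑ t, f t = ∑ x, f (b.symm x) := (Equiv.sum_comp b.symm.toEquiv f).symm
  rw [h3]
  refine sum_fin_eq_zero hX (Module.finrank (ZMod 2) F) d (h2 ▸ hd) _ ?_
  exact hf.comp_add (b.symm.toLinearMap.toAddMonoidHom)

/-- A function of low degree vanishing at zero, constant on the non-zero elements of a field, is zero,
in characteristic two. -/
theorem const_eq_zero {n d : ℕ} (hF : Fintype.card F = 2 ^ n) (hd : d < n) (hX : ∀ x : X, x + x = 0) {f : F → X}
    (hf : PD d f) (h0 : f 0 = 0) {c : X} (hc : ∀ t : F, t ≠ 0 → f t = c) : c = 0 := by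
  classical
  have h1 := sum_field_eq_zero hF hd hX hf
  rw [← Finset.add_sum_erase _ _ (Finset.mem_univ (0 : F)), h0, zero_add,
    Finset.sum_congr rfl (g := fun _ => c) (fun t ht => hc t (Finset.ne_of_mem_erase ht)), Finset.sum_const,
    Finset.card_erase_of_mem (Finset.mem_univ _), Finset.card_univ, hF] at h1
  have hn : n ≠ 0 := by omega
  obtain ⟨k, hk⟩ : ∃ k, n = k + 1 := ⟨n - 1, by omega⟩
  have h2 : 2 ^ n - 1 = 2 * (2 ^ k - 1) + 1 := by
    subst hk
    have := Nat.one_le_two_pow (n := k)
    rw [pow_succ]
    omega
  rw [h2, add_smul, one_smul, mul_smul, two_smul, hX, zero_add] at h1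
  exact h1

/-- The sum over the units. -/
theorem sum_units_eq_zero [DecidableEq F] {n d : ℕ} (hF : Fintype.card F = 2 ^ n) (hd : d < n) (hX : ∀ x : X, x + x = 0) {f : F → X}
    (hf : PD d f) (h0 : f 0 = 0) : ∑ t : Fˣ, f t = 0 := by
  have h1 := sum_field_eq_zero hF hd hX hf
  rw [← Finset.add_sum_erase _ _ (Finset.mem_univ (0 : F)), h0, zero_add] at h1
  rw [← h1]
  refine Finset.sum_bij (fun (u : Fˣ) _ => (u : F)) ?_ ?_ ?_ ?_
  · intro u _
    simp
  · intro u _ v _ h
    exact Units.ext h
  · intro t ht
    exact ⟨Units.mk0 t (Finset.ne_of_mem_erase ht), Finset.mem_univ _, rfl⟩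
  · intro u _
    rfl

end field

end Cfsg.Agent.Lib.Suzuki.RM
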