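import Cfsg.Agent.Lib.Suzuki.Fixity

/-! The normalisers of the tori of the Suzuki group. -/

set_option autoImplicit false

namespace Cfsg.Agent.Lib.Suzuki

/-- Centraliser of an element. -/
abbrev Cz {G : Type*} [Group G] (g : G) : Subgroup G := Subgroup.centralizer ({g} : Set G)

/-- Normaliser of the centraliser of an element. -/
abbrev Nz {G : Type*} [Group G] (g : G) : Subgroup G := Subgroup.normalizer ((Cz g : Subgroup G) : Set G)

theorem self_mem_Cz {G : Type*} [Group G] (g : G) : g ∈ Cz g :=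
  Subgroup.mem_centralizer_singleton_iff.mpr rfl

theorem Cz_le_Nz {G : Type*} [Group G] (g : G) : Cz g ≤ Nz g := Subgroup.le_normalizer

variable {F : Type*} [Field F] [Fintype F] {m : ℕ}
variable (hF : Fintype.card F = 2 ^ (2 * m + 1)) (hm : 1 ≤ m)

include hF hm

theorem odd_mem_Cz {g y : Cfsg.Sz F m} (hg : g ≠ 1) (hodd : ¬ 2 ∣ orderOf g) (hy : y ∈ Nz g)
    (hyo : ¬ 2 ∣ orderOf y) : y ∈ Cz g := by
  apply odd_self_normalizing hF hm hg hodd hyo
  exact (Subgroup.mem_normalizer_iff.mp hy g).mp (self_mem_Cz g)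

omit hm in
theorem tG_pow_card_sub_one (s : Fˣ) : tG hF s ^ (2 ^ (2 * m + 1) - 1) = 1 := by
  have e : ∀ n : ℕ, tG hF s ^ n = tG hF (s ^ n) := by
    intro n
    induction n with
    | zero => rw [pow_zero, pow_zero, tG_one]
    | succ n ih => rw [pow_succ, ih, tG_mul, pow_succ]
  have hs1 : s ^ (2 ^ (2 * m + 1) - 1) = 1 := by
    apply Units.ext
    rw [Units.val_pow_eq_pow_val, Units.val_one, ← hF]
    exact FiniteField.pow_card_sub_one_eq_one _ s.ne_zero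
  rw [e, hs1, tG_one]

omit hF hm [Fintype F] in
theorem odd_q_sub_one (m : ℕ) : ¬ 2 ∣ 2 ^ (2 * m + 1) - 1 := by
  have : 2 ∣ 2 ^ (2 * m + 1) := dvd_pow_self 2 (by omega)
  have hp : 1 < 2 ^ (2 * m + 1) := Nat.one_lt_two_pow (by omega)
  omega

omit hm in
theorem odd_of_conj_tG {k y : Cfsg.Sz F m} {s : Fˣ} (h : k * y * k⁻¹ = tG hF s) : ¬ 2 ∣ orderOf y := by
  have h1 : y = k⁻¹ * tG hF s * k := by
    rw [← h]
    group
  have h2 : y ^ (2 ^ (2 * m + 1) - 1) = 1 := by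
    have e := conj_pow (a := k⁻¹) (b := tG hF s) (i := 2 ^ (2 * m + 1) - 1)
    rw [inv_inv, tG_pow_card_sub_one hF, mul_one, inv_mul_cancel] at e
    rw [h1]
    exact e
  intro h3
  exact odd_q_sub_one m (h3.trans (orderOf_dvd_of_pow_eq_one h2))

theorem four_of_not_mem {g y : Cfsg.Sz F m} (hg : g ≠ 1) (hodd : ¬ 2 ∣ orderOf g) (hy : y ∈ Nz g)
    (hyC : y ∉ Cz g) : y ^ 4 = 1 := by
  have hy1 : y ≠ 1 := by
    rintro rfl
    exact hyC (Cz g).one_mem
  by_cases hder : Der y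
  · exact absurd (odd_mem_Cz hF hm hg hodd hy (der_odd hF hm hder)) hyC
  · rcases not_der_cases hF hm hy1 hder with h | ⟨k, s, hs, hk⟩
    · exact h
    · exact absurd (odd_mem_Cz hF hm hg hodd hy (odd_of_conj_tG hF hk)) hyC

/-- An involution normalising a torus inverts it. -/
theorem inv_inverts {g τ : Cfsg.Sz F m} (hg : g ≠ 1) (hodd : ¬ 2 ∣ orderOf g) (hτ : τ ∈ Nz g)
    (h2 : τ * τ = 1) (h1 : τ ≠ 1) {c : Cfsg.Sz F m} (hc : c ∈ Cz g) : τ * c * τ⁻¹ = c⁻¹ := by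
  classical
  haveI := finite_Sz hF hm
  haveI : IsCyclic (Cz g) := (odd_block hF hm hg hodd).1
  have hcomm : ∀ a ∈ Cz g, ∀ b ∈ Cz g, a * b = b * a := fun a ha b hb => cyc_comm ha hb
  have hτi : τ⁻¹ = τ := inv_eq_of_mul_eq_one_left h2
  have hmem : ∀ a ∈ Cz g, τ * a * τ⁻¹ ∈ Cz g := fun a ha => (Subgroup.mem_normalizer_iff.mp hτ a).mp ha
  have hτodd : ¬ τ ∈ Cz g := by
    intro h
    have h3 := odd_of_mem_centralizer hF hm hg hodd h
    apply h3
    have : orderOf τ = 2 := orderOf_eq_prime (by rw [sq, h2]) h1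
    rw [this]
  have hfree : ∀ a ∈ Cz g, τ * a * τ⁻¹ = a → a = 1 := by
    intro a ha e
    by_contra ha1
    apply hτodd
    have e2 := centralizer_eq_of_odd hF hm hg hodd ha ha1
    show τ ∈ Subgroup.centralizer ({g} : Set (Cfsg.Sz F m))
    rw [← e2, Subgroup.mem_centralizer_singleton_iff]
    exact mul_inv_eq_iff_eq_mul.mp e
  let f : Cz g → Cz g := fun a => ⟨(a : Cfsg.Sz F m)⁻¹ * (τ * a * τ⁻¹), (Cz g).mul_mem ((Cz g).inv_mem a.2) (hmem _ a.2)⟩
  have hinj : Function.Injective f := by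
    intro a b e
    have e1 : (a : Cfsg.Sz F m)⁻¹ * (τ * a * τ⁻¹) = (b : Cfsg.Sz F m)⁻¹ * (τ * b * τ⁻¹) := congrArg Subtype.val e
    have e2 : τ * ((a : Cfsg.Sz F m) * (b : Cfsg.Sz F m)⁻¹) * τ⁻¹ = (a : Cfsg.Sz F m) * (b : Cfsg.Sz F m)⁻¹ := by
      have e3 : τ * ((a : Cfsg.Sz F m) * (b : Cfsg.Sz F m)⁻¹) * τ⁻¹ = (τ * a * τ⁻¹) * (τ * b * τ⁻¹)⁻¹ := by group
      rw [e3]
      have e4 : τ * (a : Cfsg.Sz F m) * τ⁻¹ = a * ((b : Cfsg.Sz F m)⁻¹ * (τ * b * τ⁻¹)) := by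
        rw [← e1]
        group
      rw [e4]
      group
    have e5 := hfree _ ((Cz g).mul_mem a.2 ((Cz g).inv_mem b.2)) e2
    apply Subtype.ext
    exact mul_inv_eq_one.mp e5
  have hsurj : Function.Surjective f := Finite.surjective_of_injective hinj
  obtain ⟨a, ha⟩ := hsurj ⟨c, hc⟩
  have hc' : c = (a : Cfsg.Sz F m)⁻¹ * (τ * a * τ⁻¹) := (congrArg Subtype.val ha).symm
  rw [hc', hτi]
  have hta : τ * (a : Cfsg.Sz F m) * τ ∈ Cz g := by
    have := hmem _ a.2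
    rwa [hτi] at this
  have e6 : τ * ((a : Cfsg.Sz F m)⁻¹ * (τ * a * τ)) * τ = (τ * (a : Cfsg.Sz F m)⁻¹ * τ) * a * (τ * τ) := by
    group
  have e7 : τ * (a : Cfsg.Sz F m)⁻¹ * τ = (τ * a * τ)⁻¹ := by
    rw [_root_.mul_inv_rev, _root_.mul_inv_rev, hτi]
    group
  rw [e6, h2, mul_one, _root_.mul_inv_rev, inv_inv, e7]

/-- Involutions of the normaliser lie in a coset of the torus. -/
theorem inv_coset {g τ y : Cfsg.Sz F m} (hg : g ≠ 1) (hodd : ¬ 2 ∣ orderOf g) (hτ : τ ∈ Nz g)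
    (h2 : τ * τ = 1) (h1 : τ ≠ 1) (hy : y ∈ Nz g) (hy2 : y * y = 1) (hy1 : y ≠ 1) : τ * y ∈ Cz g := by
  have e1 := inv_inverts hF hm hg hodd hy hy2 hy1 (self_mem_Cz g)
  have e2 := inv_inverts hF hm hg hodd hτ h2 h1 ((Cz g).inv_mem (self_mem_Cz g))
  rw [Subgroup.mem_centralizer_singleton_iff]
  have hyi : y⁻¹ = y := inv_eq_of_mul_eq_one_left hy2
  have hτi : τ⁻¹ = τ := inv_eq_of_mul_eq_one_left h2
  rw [inv_inv] at e2
  rw [hyi] at e1
  rw [hτi] at e2
  calc τ * y * g = τ * (y * g * y) * y := by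
        have : τ * (y * g * y) * y = τ * y * g * (y * y) := by group
        rw [this, hy2, mul_one]
    _ = τ * g⁻¹ * y := by rw [e1]
    _ = (τ * g⁻¹ * τ) * (τ * y) := by
        have : τ * g⁻¹ * τ * (τ * y) = τ * g⁻¹ * (τ * τ) * y := by group
        rw [this, h2, mul_one]
    _ = g * (τ * y) := by rw [e2]

/-- The number of involutions in the normaliser. -/
theorem card_inv_Nz {g τ : Cfsg.Sz F m} (hg : g ≠ 1) (hodd : ¬ 2 ∣ orderOf g) (hτ : τ ∈ Nz g)
    (h2 : τ * τ = 1) (h1 : τ ≠ 1) :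
    Nat.card {y : Cfsg.Sz F m // y ∈ Nz g ∧ y * y = 1 ∧ y ≠ 1} = Nat.card (Cz g) := by
  have hτi : τ⁻¹ = τ := inv_eq_of_mul_eq_one_left h2
  have hτC : τ ∉ Cz g := by
    intro h
    apply odd_of_mem_centralizer hF hm hg hodd h
    have : orderOf τ = 2 := orderOf_eq_prime (by rw [sq, h2]) h1
    rw [this]
  apply Nat.card_congr
  exact
    { toFun := fun y => ⟨τ * y.1, inv_coset hF hm hg hodd hτ h2 h1 y.2.1 y.2.2.1 y.2.2.2⟩
      invFun := fun c => ⟨τ * c.1, by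
        refine ⟨(Nz g).mul_mem hτ (Cz_le_Nz g c.2), ?_, ?_⟩
        · have e := inv_inverts hF hm hg hodd hτ h2 h1 c.2
          rw [hτi] at e
          calc τ * c.1 * (τ * c.1) = (τ * c.1 * τ) * c.1 := by group
            _ = 1 := by rw [e]; group
        · intro e
          apply hτC
          have : τ = c.1⁻¹ := eq_inv_of_mul_eq_one_left e
          rw [this]
          exact (Cz g).inv_mem c.2⟩
      left_inv := fun y => by
        apply Subtype.ext
        show τ * (τ * y.1) = y.1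
        rw [← mul_assoc, h2, one_mul]
      right_inv := fun c => by
        apply Subtype.ext
        show τ * (τ * c.1) = c.1
        rw [← mul_assoc, h2, one_mul] }

/-- Two-elements have a unique fixed point. -/
theorem two_fix_unique {x : Cfsg.Sz F m} (hx : x ^ 4 = 1) (hx1 : x ≠ 1) {p r : Cfsg.suzukiOvoid F m}
    (h1 : x • p = p) (h3 : x • r = r) : p = r := by
  have hA := ax_Sz hF hm
  by_cases h2 : x * x = 1
  · exact hA.inv_uniq h2 hx1 h1 h3
  · have e : x * x * (x * x) = 1 := by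
      rw [← hx]
      simp only [pow_succ, pow_zero, one_mul, mul_assoc]
    refine hA.inv_uniq e h2 ?_ ?_
    · rw [mul_smul, h1, h1]
    · rw [mul_smul, h3, h3]

/-- A two-subgroup fixes a point. -/
theorem pgroup_fix {H : Subgroup (Cfsg.Sz F m)} (hH : IsPGroup 2 H) :
    ∃ p : Cfsg.suzukiOvoid F m, ∀ y ∈ H, y • p = p := by
  haveI := finite_Sz hF hm
  haveI : Fact (Nat.Prime 2) := ⟨Nat.prime_two⟩
  obtain ⟨Q, hQ⟩ := hH.exists_le_sylow
  obtain ⟨k, hk⟩ := exists_conj hF hm Q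
  refine ⟨k • ⟨pinf F, pinf_mem⟩, ?_⟩
  intro y hy
  obtain ⟨a, b, e⟩ := (hk y).mp (hQ hy)
  apply Subtype.ext
  show y • (k • pinf F) = k • pinf F
  have e2 : y * k = k * uG hF a b := by
    rw [← e]
    group
  rw [← mul_smul, e2, mul_smul, uG_smul_pinf hF]

/-- Uniqueness of the torus normalised by two elements without a common fixed point. -/
theorem unique_torus {x y g₁ g₂ : Cfsg.Sz F m} (hg₁ : g₁ ≠ 1) (hodd₁ : ¬ 2 ∣ orderOf g₁) (hg₂ : g₂ ≠ 1)
    (hodd₂ : ¬ 2 ∣ orderOf g₂) (hx₁ : x ∈ Nz g₁) (hy₁ : y ∈ Nz g₁) (hx₂ : x ∈ Nz g₂) (hy₂ : y ∈ Nz g₂)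
    (hno : ¬ ∃ p : Cfsg.suzukiOvoid F m, x • p = p ∧ y • p = p) : Cz g₁ = Cz g₂ := by
  classical
  haveI := finite_Sz hF hm
  set H := Subgroup.closure ({x, y} : Set (Cfsg.Sz F m)) with hH
  have hle₁ : H ≤ Nz g₁ := by
    rw [hH, Subgroup.closure_le]
    rintro z (rfl | rfl)
    · exact hx₁
    · exact hy₁
  have hle₂ : H ≤ Nz g₂ := by
    rw [hH, Subgroup.closure_le]
    rintro z (rfl | rfl)
    · exact hx₂
    · exact hy₂
  have hxH : x ∈ H := Subgroup.subset_closure (by simp)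
  have hyH : y ∈ H := Subgroup.subset_closure (by simp)
  have hex : ∃ c ∈ H, c ≠ 1 ∧ c ∈ Cz g₁ := by
    by_contra hcon
    push Not at hcon
    have hp : IsPGroup 2 H := by
      intro z
      refine ⟨2, ?_⟩
      apply Subtype.ext
      show (z : Cfsg.Sz F m) ^ 2 ^ 2 = 1
      by_cases hz : (z : Cfsg.Sz F m) = 1
      · rw [hz, one_pow]
      · exact four_of_not_mem hF hm hg₁ hodd₁ (hle₁ z.2) (hcon _ z.2 hz)
    obtain ⟨p, hfix⟩ := pgroup_fix hF hm hp
    exact hno ⟨p, hfix x hxH, hfix y hyH⟩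
  obtain ⟨c, hcH, hc1, hcC⟩ := hex
  have hco := odd_of_mem_centralizer hF hm hg₁ hodd₁ hcC
  have hcC₂ := odd_mem_Cz hF hm hg₂ hodd₂ (hle₂ hcH) hco
  have e1 := centralizer_eq_of_odd hF hm hg₁ hodd₁ hcC hc1
  have e2 := centralizer_eq_of_odd hF hm hg₂ hodd₂ hcC₂ hc1
  exact e1.symm.trans e2

/-- The normaliser of the split torus. -/
theorem card_normalizer_TT {s : Fˣ} (hs : s ≠ 1) :
    Nat.card (Subgroup.normalizer ((TT hF : Subgroup (Cfsg.Sz F m)) : Set (Cfsg.Sz F m))) = 2 * Nat.card (TT hF) := by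
  classical
  haveI := finite_Sz hF hm
  have hw : wG hF hm ∈ Subgroup.normalizer ((TT hF : Subgroup (Cfsg.Sz F m)) : Set (Cfsg.Sz F m)) := by
    rw [Subgroup.mem_normalizer_iff]
    intro h
    have hwi := wG_inv hF hm
    constructor
    · rintro ⟨t, rfl⟩
      refine ⟨t⁻¹, ?_⟩
      have e := wG_tG_wG hF hm t
      rw [← hwi] at e
      rw [hwi] at e ⊢
      exact e.symm
    · rintro ⟨t, ht⟩
      have ht' : tG hF t = wG hF hm * h * (wG hF hm)⁻¹ := ht
      refine ⟨t⁻¹, ?_⟩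
      show tG hF t⁻¹ = h
      have e := wG_tG_wG hF hm t
      rw [ht', hwi] at e
      have e2 : wG hF hm * (wG hF hm * h * wG hF hm) * wG hF hm = (wG hF hm * wG hF hm) * h * (wG hF hm * wG hF hm) := by group
      rw [e2, wG_sq, one_mul, mul_one] at e
      exact e.symm
  have hset : ((Subgroup.normalizer ((TT hF : Subgroup (Cfsg.Sz F m)) : Set (Cfsg.Sz F m)) : Subgroup (Cfsg.Sz F m)) : Set (Cfsg.Sz F m)) =
      (TT hF : Set (Cfsg.Sz F m)) ∪ (fun x => wG hF hm * x) '' (TT hF : Set (Cfsg.Sz F m)) := by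
    apply Set.Subset.antisymm
    · intro n hn
      rcases normalizer_TT_cases hF hm hs hn with ⟨t, rfl⟩ | ⟨t, rfl⟩
      · exact Or.inl ⟨t, rfl⟩
      · exact Or.inr ⟨tG hF t, ⟨t, rfl⟩, rfl⟩
    · rintro n (h | ⟨z, hz, rfl⟩)
      · exact Subgroup.le_normalizer h
      · exact Subgroup.mul_mem _ hw (Subgroup.le_normalizer hz)
  have hdisj : Disjoint (TT hF : Set (Cfsg.Sz F m)) ((fun x => wG hF hm * x) '' (TT hF : Set (Cfsg.Sz F m))) := by
    rw [Set.disjoint_left]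
    rintro a ⟨t, rfl⟩ ⟨_, ⟨t', rfl⟩, e⟩
    apply wG_not_mem_BB hF hm
    have e' : wG hF hm * tG hF t' = tG hF t := e
    have e2 : wG hF hm = tG hF t * (tG hF t')⁻¹ := by
      rw [← e']
      group
    rw [e2]
    exact (BB F m).mul_mem (tG_mem_BB hF hm t) ((BB F m).inv_mem (tG_mem_BB hF hm t'))
  have h4 : ((TT hF : Subgroup (Cfsg.Sz F m)) : Set (Cfsg.Sz F m)).ncard = Nat.card (TT hF) := by
    rw [← Nat.card_coe_set_eq]
    rfl
  have h5 : ((Subgroup.normalizer ((TT hF : Subgroup (Cfsg.Sz F m)) : Set (Cfsg.Sz F m)) : Subgroup (Cfsg.Sz F m)) : Set (Cfsg.Sz F m)).ncard =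
      Nat.card (Subgroup.normalizer ((TT hF : Subgroup (Cfsg.Sz F m)) : Set (Cfsg.Sz F m))) := by
    rw [← Nat.card_coe_set_eq]
    rfl
  have h3 := Set.ncard_image_of_injective (TT hF : Set (Cfsg.Sz F m)) (mul_right_injective (wG hF hm))
  rw [← h5, hset, Set.ncard_union_eq hdisj (Set.toFinite _) (Set.toFinite _), h3, h4]
  ring

/-- The orders of the normalisers of the tori. -/
theorem card_Nz_split {g : Cfsg.Sz F m} (hg : g ≠ 1) (hodd : ¬ 2 ∣ orderOf g) (hder : ¬ Der g) :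
    Nat.card (Nz g) = 2 * Nat.card (Cz g) := by
  classical
  rcases not_der_cases hF hm hg hder with h | ⟨k, s, hs, hk⟩
  · exact absurd (pow_odd_eq_one_of_pow_four hodd h) hg
  · obtain ⟨e⟩ := centralizerConj k g
    have e1 := normalizer_centralizer_conj k g
    have e2 := card_conj_map (Subgroup.normalizer ((Subgroup.centralizer ({g} : Set (Cfsg.Sz F m)) : Subgroup (Cfsg.Sz F m)) : Set (Cfsg.Sz F m))) k
    rw [← e1, hk, centralizer_tG_eq hF hm hs, card_normalizer_TT hF hm hs] at e2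
    rw [← Nat.card_congr e.toEquiv, hk, centralizer_tG_eq hF hm hs]
    exact e2.symm

/-- Two-elements in a Borel subgroup lie in the unipotent group. -/
theorem mem_UU_of_four {y : Cfsg.Sz F m} (hy : y ^ 4 = 1) (hf : y • pinf F = pinf F) : y ∈ UU hF hm := by
  obtain ⟨a, b, t, rfl⟩ := (fix_pinf_iff hF hm _).mp hf
  haveI := finite_Sz hF hm
  -- the torus part is trivial
  have hB : uG hF a b * tG hF t ∈ BB F m := hf
  have e0 : (⟨uG hF a b * tG hF t, hB⟩ : BB F m) ^ 4 = 1 := Subtype.ext hy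
  have e1 := congrArg (rho hF hm) e0
  rw [map_pow, map_one] at e1
  have e2 : rho hF hm ⟨uG hF a b * tG hF t, hB⟩ = t := rhoFun_eq hF hm rfl
  rw [e2] at e1
  have ht : t = 1 := by
    apply Units.ext
    have := congrArg (fun u : Fˣ => (u : F)) e1
    simp only [Units.val_pow_eq_pow_val, Units.val_one] at this
    exact four_root hF this
  rw [ht, tG_one, mul_one]
  exact uG_mem hF hm a b

/-- An element of the torus fixing a point fixed by an involution normalising the torus is trivial. -/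
theorem fix_torus_trivial {g τ c : Cfsg.Sz F m} (hg : g ≠ 1) (hodd : ¬ 2 ∣ orderOf g) (hτ : τ ∈ Nz g)
    (h2 : τ * τ = 1) (h1 : τ ≠ 1) (hc : c ∈ Cz g) {p : Cfsg.suzukiOvoid F m} (hτp : τ • p = p) (hcp : c • p = p) : c = 1 := by
  classical
  haveI := finite_Sz hF hm
  obtain ⟨h, hh⟩ := exists_smul_pinf hF hm p.2
  have hτp' : τ • (p : Projectivization F (Fin 4 → F)) = p := congrArg Subtype.val hτp
  have hcp' : c • (p : Projectivization F (Fin 4 → F)) = p := congrArg Subtype.val hcp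
  have hinv : h⁻¹ • pinf F = (p : Projectivization F (Fin 4 → F)) := by
    rw [inv_smul_eq_iff, hh]
  have e1 : (h * c * h⁻¹) • pinf F = pinf F := by
    rw [mul_smul, mul_smul, hinv, hcp', hh]
  have e2 : (h * τ * h⁻¹) • pinf F = pinf F := by
    rw [mul_smul, mul_smul, hinv, hτp', hh]
  have e3 : (h * τ * h⁻¹) * (h * τ * h⁻¹) = 1 := by
    calc (h * τ * h⁻¹) * (h * τ * h⁻¹) = h * (τ * τ) * h⁻¹ := by group
      _ = 1 := by rw [h2]; group
  have e4 : h * τ * h⁻¹ ≠ 1 := by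
    intro e
    apply h1
    calc τ = h⁻¹ * (h * τ * h⁻¹) * h := by group
      _ = 1 := by rw [e]; group
  obtain ⟨d, hd, e5⟩ := inv_at_pinf hF hm e3 e4 e2
  obtain ⟨a, b, t, e6⟩ := (fix_pinf_iff hF hm _).mp e1
  have hrel := inv_inverts hF hm hg hodd hτ h2 h1 hc
  have hB1 : h * c * h⁻¹ ∈ BB F m := e1
  have hB2 : h * τ * h⁻¹ ∈ BB F m := e2
  have hrel2 : (⟨h * τ * h⁻¹, hB2⟩ : BB F m) * ⟨h * c * h⁻¹, hB1⟩ * (⟨h * τ * h⁻¹, hB2⟩ : BB F m)⁻¹ = (⟨h * c * h⁻¹, hB1⟩ : BB F m)⁻¹ := by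
    apply Subtype.ext
    show (h * τ * h⁻¹) * (h * c * h⁻¹) * (h * τ * h⁻¹)⁻¹ = (h * c * h⁻¹)⁻¹
    have : (h * τ * h⁻¹) * (h * c * h⁻¹) * (h * τ * h⁻¹)⁻¹ = h * (τ * c * τ⁻¹) * h⁻¹ := by group
    rw [this, hrel]
    group
  have r1 : rho hF hm ⟨h * c * h⁻¹, hB1⟩ = t := rhoFun_eq hF hm e6
  have r2 : rho hF hm ⟨h * τ * h⁻¹, hB2⟩ = 1 := by
    apply rhoFun_eq hF hm (a := 0) (b := d)
    show h * τ * h⁻¹ = uG hF 0 d * tG hF 1
    rw [tG_one, mul_one, e5]
  have r3 := congrArg (rho hF hm) hrel2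
  rw [map_mul, map_mul, map_inv, map_inv, r1, r2, one_mul, inv_one, mul_one] at r3
  have ht : t = 1 := by
    have ht2 : t * t = 1 := by
      calc t * t = t⁻¹ * t := by rw [← r3]
        _ = 1 := inv_mul_cancel t
    apply Units.ext
    have := congrArg (fun u : Fˣ => (u : F)) ht2
    simp only [Units.val_mul, Units.val_one] at this
    apply four_root hF
    calc (t : F) ^ 4 = ((t : F) * t) * ((t : F) * t) := by ring
      _ = 1 := by rw [this, mul_one]
  rw [ht, tG_one, mul_one] at e6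
  have e7 : (h * c * h⁻¹) ^ 4 = 1 := by
    rw [e6]
    exact uG_pow_four hF hm a b
  rw [conj_pow] at e7
  have e8 : c ^ 4 = 1 := by
    calc c ^ 4 = h⁻¹ * (h * c ^ 4 * h⁻¹) * h := by group
      _ = 1 := by rw [e7]; group
  exact pow_odd_eq_one_of_pow_four (odd_of_mem_centralizer hF hm hg hodd hc) e8

omit hF hm [Fintype F] [Field F] in
/-- The product of two subgroups meeting trivially. -/
theorem card_mul_le_of_inf {G : Type*} [Group G] {A C B : Subgroup G} [Finite B] (hA : A ≤ B) (hC : C ≤ B)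
    (h : ∀ a ∈ A, a ∈ C → a = 1) : Nat.card A * Nat.card C ≤ Nat.card B := by
  rw [← Nat.card_prod]
  refine Nat.card_le_card_of_injective (fun p => ⟨(p.1 : G) * p.2, B.mul_mem (hA p.1.2) (hC p.2.2)⟩) ?_
  rintro ⟨⟨a, ha⟩, ⟨c, hc⟩⟩ ⟨⟨a', ha'⟩, ⟨c', hc'⟩⟩ e
  have e1 : a * c = a' * c' := congrArg Subtype.val e
  have e2 : a'⁻¹ * a = c' * c⁻¹ := by
    calc a'⁻¹ * a = a'⁻¹ * (a * c) * c⁻¹ := by group
      _ = a'⁻¹ * (a' * c') * c⁻¹ := by rw [e1]
      _ = c' * c⁻¹ := by group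
  have e3 : a'⁻¹ * a = 1 := by
    apply h _ (A.mul_mem (A.inv_mem ha') ha)
    rw [e2]
    exact C.mul_mem hc' (C.inv_mem hc)
  have e4 : a = a' := by
    rw [inv_mul_eq_one] at e3
    exact e3.symm
  subst e4
  have e5 : c = c' := mul_left_cancel e1
  subst e5
  rfl

/-- The stabiliser of a point fixed by a two-element in the normaliser. -/
theorem stab_count {g x : Cfsg.Sz F m} (hg : g ≠ 1) (hodd : ¬ 2 ∣ orderOf g) {e : ℕ}
    (he : Nat.card (Nz g) = e * Nat.card (Cz g)) (he2 : e = 2 ∨ e = 4) (hx : x ∈ Nz g) (hx4 : x ^ 4 = 1) (hx1 : x ≠ 1)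
    {p : Cfsg.suzukiOvoid F m} (hxp : x • p = p) :
    Nat.card (Nz g ⊓ MulAction.stabilizer (Cfsg.Sz F m) p : Subgroup (Cfsg.Sz F m)) = e := by
  classical
  haveI := finite_Sz hF hm
  haveI : Fact (Nat.Prime 2) := ⟨Nat.prime_two⟩
  set H := (Nz g ⊓ MulAction.stabilizer (Cfsg.Sz F m) p : Subgroup (Cfsg.Sz F m)) with hH
  have hCpos : 0 < Nat.card (Cz g) := Nat.card_pos
  -- an involution at the point
  obtain ⟨τ, hτN, hτ2, hτ1, hτp⟩ : ∃ τ : Cfsg.Sz F m, τ ∈ Nz g ∧ τ * τ = 1 ∧ τ ≠ 1 ∧ τ • p = p := by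
    by_cases h2 : x * x = 1
    · exact ⟨x, hx, h2, hx1, hxp⟩
    · refine ⟨x * x, (Nz g).mul_mem hx hx, ?_, h2, ?_⟩
      · rw [← hx4]
        simp only [pow_succ, pow_zero, one_mul, mul_assoc]
      · rw [mul_smul, hxp, hxp]
  have hupper : Nat.card H ≤ e := by
    have h1 : Nat.card H * Nat.card (Cz g) ≤ Nat.card (Nz g) := by
      apply card_mul_le_of_inf inf_le_left (Cz_le_Nz g)
      intro a ha hc
      exact fix_torus_trivial hF hm hg hodd hτN hτ2 hτ1 hc hτp ha.2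
    rw [he] at h1
    exact Nat.le_of_mul_le_mul_right h1 hCpos
  apply le_antisymm hupper
  -- a Sylow subgroup of the normaliser
  set x' : Nz g := ⟨x, hx⟩ with hx'
  have hP : IsPGroup 2 (Subgroup.zpowers x') := by
    intro z
    obtain ⟨z, k, rfl⟩ := z
    refine ⟨2, ?_⟩
    apply Subtype.ext
    show ((x' ^ k) ^ 2 ^ 2 : Nz g) = 1
    apply Subtype.ext
    show (x ^ k) ^ 2 ^ 2 = 1
    rw [← zpow_natCast, ← zpow_mul, mul_comm, zpow_mul, zpow_natCast]
    show (x ^ 4) ^ k = 1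
    rw [hx4, one_zpow]
  obtain ⟨S, hS⟩ := hP.exists_le_sylow
  have hPS : IsPGroup 2 ((S : Subgroup (Nz g)).map (Nz g).subtype) := S.isPGroup'.map _
  obtain ⟨r, hr⟩ := pgroup_fix hF hm hPS
  have hxS : x ∈ (S : Subgroup (Nz g)).map (Nz g).subtype := ⟨x', hS (Subgroup.mem_zpowers x'), rfl⟩
  have hrp : r = p := two_fix_unique hF hm hx4 hx1 (hr x hxS) hxp
  subst hrp
  have hle : (S : Subgroup (Nz g)).map (Nz g).subtype ≤ H := by
    intro y hy
    refine ⟨?_, hr y hy⟩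
    obtain ⟨z, -, rfl⟩ := hy
    exact z.2
  have hcardS : Nat.card ((S : Subgroup (Nz g)).map (Nz g).subtype) = Nat.card S :=
    (Nat.card_congr ((S : Subgroup (Nz g)).equivMapOfInjective _ (Subgroup.subtype_injective _)).toEquiv).symm
  have h5 : Nat.card S ≤ Nat.card H := by
    rw [← hcardS]
    exact Nat.card_le_card_of_injective (Subgroup.inclusion hle) (Subgroup.inclusion_injective hle)
  refine le_trans ?_ h5
  have h6 := (S : Subgroup (Nz g)).card_mul_index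
  rw [he] at h6
  have hnot : ¬ 2 ∣ (S : Subgroup (Nz g)).index := S.not_dvd_index
  have hSpos : 0 < Nat.card S := Nat.card_pos
  have hco : Nat.Coprime e (S : Subgroup (Nz g)).index := by
    rcases he2 with rfl | rfl
    · exact (Nat.Prime.coprime_iff_not_dvd Nat.prime_two).mpr hnot
    · exact (Nat.Coprime.pow_left 2 ((Nat.Prime.coprime_iff_not_dvd Nat.prime_two).mpr hnot) :
        Nat.Coprime (2 ^ 2) (S : Subgroup (Nz g)).index)
  have hd : e ∣ Nat.card S * (S : Subgroup (Nz g)).index := by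
    rw [h6]
    exact dvd_mul_right _ _
  exact Nat.le_of_dvd hSpos (hco.dvd_of_dvd_mul_right hd)

end Cfsg.Agent.Lib.Suzuki
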