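import Cfsg.Agent.Lib.Suzuki.SolA

/-! Double counting in the Suzuki group. -/

set_option autoImplicit false

namespace Cfsg.Agent.Lib.Suzuki

open Finset

section generic

variable {G : Type*} [Group G]

/-- The number of conjugators into a subgroup. -/
noncomputable def KK (N : Subgroup G) (x : G) : ℕ := Nat.card {k : G // k⁻¹ * x * k ∈ N}

theorem KK_conj (N : Subgroup G) (x k₀ : G) : KK N (k₀ * x * k₀⁻¹) = KK N x := by
  apply Nat.card_congr
  exact
    { toFun := fun k => ⟨k₀⁻¹ * k.1, by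
        have e : (k₀⁻¹ * k.1)⁻¹ * x * (k₀⁻¹ * k.1) = k.1⁻¹ * (k₀ * x * k₀⁻¹) * k.1 := by group
        rw [e]
        exact k.2⟩
      invFun := fun k => ⟨k₀ * k.1, by
        have e : (k₀ * k.1)⁻¹ * (k₀ * x * k₀⁻¹) * (k₀ * k.1) = k.1⁻¹ * x * k.1 := by group
        rw [e]
        exact k.2⟩
      left_inv := fun k => by
        apply Subtype.ext
        simp
      right_inv := fun k => by
        apply Subtype.ext
        simp }

theorem KK_inv (N : Subgroup G) (x : G) : KK N x⁻¹ = KK N x := by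
  apply Nat.card_congr
  exact
    { toFun := fun k => ⟨k.1, by
        have e : k.1⁻¹ * x * k.1 = (k.1⁻¹ * x⁻¹ * k.1)⁻¹ := by group
        rw [e]
        exact N.inv_mem k.2⟩
      invFun := fun k => ⟨k.1, by
        have e : k.1⁻¹ * x⁻¹ * k.1 = (k.1⁻¹ * x * k.1)⁻¹ := by group
        rw [e]
        exact N.inv_mem k.2⟩
      left_inv := fun k => rfl
      right_inv := fun k => rfl }

/-- The double count over a conjugation invariant set on which the count is constant. -/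
theorem KK_sum [Finite G] (N : Subgroup G) (P : G → Prop) (hP : ∀ k x, P x → P (k⁻¹ * x * k)) {K₀ : ℕ}
    (hK : ∀ x, P x → KK N x = K₀) :
    K₀ * Nat.card {x : G // P x} = Nat.card G * Nat.card {x : G // P x ∧ x ∈ N} := by
  classical
  haveI : Fintype G := Fintype.ofFinite G
  have key := Finset.sum_card_bipartiteAbove_eq_sum_card_bipartiteBelow
    (s := univ.filter P) (t := (univ : Finset G)) (fun x k => k⁻¹ * x * k ∈ N)
  have h1 : ∑ x ∈ univ.filter P, (Finset.bipartiteAbove (fun x k => k⁻¹ * x * k ∈ N) (univ : Finset G) x).card =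
      K₀ * Nat.card {x : G // P x} := by
    rw [Nat.card_eq_fintype_card, Fintype.card_subtype, mul_comm, ← smul_eq_mul, ← Finset.sum_const]
    apply Finset.sum_congr rfl
    intro x hx
    rw [← hK x (mem_filter.mp hx).2, KK, Nat.card_eq_fintype_card, Fintype.card_subtype]
    rfl
  have h2 : ∑ k : G, ((univ.filter P).bipartiteBelow (fun x k => k⁻¹ * x * k ∈ N) k).card =
      Nat.card G * Nat.card {x : G // P x ∧ x ∈ N} := by
    rw [Nat.card_eq_fintype_card (α := G), Nat.card_eq_fintype_card, Fintype.card_subtype,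
      ← Finset.card_univ, ← smul_eq_mul, ← Finset.sum_const]
    apply Finset.sum_congr rfl
    intro k _
    show ((univ.filter P).filter (fun x => k⁻¹ * x * k ∈ N)).card = _
    apply Finset.card_equiv (MulAut.conj k⁻¹).toEquiv
    intro x
    simp only [mem_filter, mem_univ, true_and, MulEquiv.toEquiv_eq_coe, MulEquiv.coe_toEquiv,
      MulAut.conj_apply, inv_inv]
    constructor
    · rintro ⟨h3, h4⟩
      exact ⟨hP k x h3, h4⟩
    · rintro ⟨h3, h4⟩
      refine ⟨?_, h4⟩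
      have := hP k⁻¹ _ h3
      have e : k⁻¹⁻¹ * (k⁻¹ * x * k) * k⁻¹ = x := by group
      rwa [e] at this
  rw [← h1, ← h2, key]

end generic

variable {F : Type*} [Field F] [Fintype F] {m : ℕ}
variable (hF : Fintype.card F = 2 ^ (2 * m + 1)) (hm : 1 ≤ m)

include hF hm

/-- All involutions are conjugate. -/
theorem inv_all_conj {x x' : Cfsg.Sz F m} (h : x * x = 1) (h1 : x ≠ 1) (h' : x' * x' = 1) (h1' : x' ≠ 1) :
    ∃ k : Cfsg.Sz F m, k * x * k⁻¹ = x' := by
  obtain ⟨k, b, hb, e⟩ := inv_conj_uG hF hm h h1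
  obtain ⟨k', b', hb', e'⟩ := inv_conj_uG hF hm h' h1'
  obtain ⟨t, ht, et⟩ := sg1_surj hF (div_ne_zero hb' hb)
  let T : Fˣ := Units.mk0 t ht
  have e3 := tG_conj hF hm T 0 b
  have eT : (T : F) = t := rfl
  rw [eT, et, mul_zero, div_mul_cancel₀ _ hb, ← e, ← e'] at e3
  refine ⟨k'⁻¹ * tG hF T * k, ?_⟩
  have e4 : k'⁻¹ * tG hF T * k * x * (k'⁻¹ * tG hF T * k)⁻¹ = k'⁻¹ * (tG hF T * (k * x * k⁻¹) * (tG hF T)⁻¹) * k' := by group
  rw [e4, e3]
  group

/-- The two classes of elements of order four. -/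
theorem four_all_conj {x : Cfsg.Sz F m} (h : x ^ 4 = 1) (h1 : x * x ≠ 1) :
    ∃ k : Cfsg.Sz F m, k * x * k⁻¹ = uG hF 1 0 ∨ k * x * k⁻¹ = uG hF 1 1 := by
  classical
  have h2 := two_zero hF
  obtain ⟨p, hp, hfix⟩ := fix_of_two_pow hF hm (g := x) (n := 2) h
  obtain ⟨k₀, hk₀⟩ := exists_smul_pinf hF hm hp
  have e1 : (k₀ * x * k₀⁻¹) • pinf F = pinf F := by
    rw [← hk₀]
    simp only [mul_smul, inv_smul_smul, hfix]
  have e2 : (k₀ * x * k₀⁻¹) ^ 4 = 1 := by
    rw [conj_pow, h, mul_one, mul_inv_cancel]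
  obtain ⟨a, b, e3⟩ := mem_UU_of_four hF hm e2 e1
  have ha : a ≠ 0 := by
    rintro rfl
    apply h1
    have := (sq_one_iff hF hm 0 b).mpr rfl
    rw [← e3] at this
    have e4 : k₀ * x * k₀⁻¹ * (k₀ * x * k₀⁻¹) = k₀ * (x * x) * k₀⁻¹ := by group
    rw [e4] at this
    calc x * x = k₀⁻¹ * (k₀ * (x * x) * k₀⁻¹) * k₀ := by group
      _ = 1 := by rw [this]; group
  let A : Fˣ := (Units.mk0 a ha)⁻¹
  have e5 := tG_conj hF hm A a b
  have eA : (A : F) = a⁻¹ := by simp [A]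
  rw [eA, inv_mul_cancel₀ ha] at e5
  set b₁ := (a⁻¹) ^ (2 ^ (m + 1) + 1) * b with hb₁
  -- the Artin-Schreier type map
  let φ : F → F := fun e => e ^ (2 ^ (m + 1)) + e
  have hφadd : ∀ c d, φ (c + d) = φ c + φ d := by
    intro c d
    show (c + d) ^ (2 ^ (m + 1)) + (c + d) = c ^ (2 ^ (m + 1)) + c + (d ^ (2 ^ (m + 1)) + d)
    rw [sg_add hF]
    ring
  have hφne : ∀ c, φ c ≠ 1 := fun c => no_root_z hF c
  have hfib : ∀ c d, φ c = φ d → c = d ∨ c = d + 1 := by
    intro c d e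
    have e6 : φ (c + d) = 0 := by
      rw [hφadd, e]
      grind
    have e7 : (c + d) ^ (2 ^ (m + 1)) = c + d := by
      have : (c + d) ^ (2 ^ (m + 1)) + (c + d) = 0 := e6
      grind
    rcases sg_fix hF e7 with e8 | e8
    · left
      grind
    · right
      grind
  have hcover : ∀ z : F, (∃ e, φ e = z) ∨ (∃ e, φ e + 1 = z) := by
    set I := (univ : Finset F).image φ with hI
    set J := I.image (fun z => z + 1) with hJ
    have hIcard : (univ : Finset F).card ≤ 2 * I.card := by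
      apply Finset.card_le_mul_card_image
      intro c hc
      obtain ⟨d, -, rfl⟩ := mem_image.mp hc
      have hsub : (univ.filter (fun x => φ x = φ d)) ⊆ {d, d + 1} := by
        intro x hx
        have := (mem_filter.mp hx).2
        simp only [mem_insert, mem_singleton]
        exact hfib x d this
      exact (Finset.card_le_card hsub).trans Finset.card_le_two
    have hJcard : J.card = I.card := Finset.card_image_of_injective _ (add_left_injective 1)
    have hdisj : Disjoint I J := by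
      rw [Finset.disjoint_left]
      intro c hc hc'
      obtain ⟨d, -, rfl⟩ := mem_image.mp hc
      obtain ⟨c', hc'', e9⟩ := mem_image.mp hc'
      obtain ⟨d', -, rfl⟩ := mem_image.mp hc''
      apply hφne (d + d')
      rw [hφadd]
      have e10 : φ d' + 1 = φ d := e9
      grind
    have hunion : I ∪ J = univ := by
      apply Finset.eq_univ_of_card
      have h3 := Finset.card_le_univ (I ∪ J)
      rw [Finset.card_union_of_disjoint hdisj, hJcard] at h3 ⊢
      rw [Finset.card_univ] at hIcard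
      omega
    intro z
    have hz : z ∈ I ∪ J := by
      rw [hunion]
      exact mem_univ z
    rcases mem_union.mp hz with hz | hz
    · obtain ⟨d, -, rfl⟩ := mem_image.mp hz
      exact Or.inl ⟨d, rfl⟩
    · obtain ⟨c', hc'', e9⟩ := mem_image.mp hz
      obtain ⟨d', -, rfl⟩ := mem_image.mp hc''
      exact Or.inr ⟨d', e9⟩
  have econj : ∀ e : F, ∃ k : Cfsg.Sz F m, k * x * k⁻¹ = uG hF 1 (b₁ + φ e) := by
    intro e
    refine ⟨uG hF e 0 * tG hF A * k₀, ?_⟩
    have e11 : uG hF e 0 * tG hF A * k₀ * x * (uG hF e 0 * tG hF A * k₀)⁻¹ =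
        uG hF e 0 * (tG hF A * (k₀ * x * k₀⁻¹) * (tG hF A)⁻¹) * (uG hF e 0)⁻¹ := by group
    rw [e11, e3, e5, uG_conj hF hm, sg_one]
    congr 1
    show b₁ + e ^ (2 ^ (m + 1)) * 1 + 1 * e = b₁ + (e ^ (2 ^ (m + 1)) + e)
    ring
  rcases hcover b₁ with ⟨e, he⟩ | ⟨e, he⟩
  · obtain ⟨k, hk⟩ := econj e
    refine ⟨k, Or.inl ?_⟩
    have e12 : b₁ + φ e = 0 := by
      rw [← he, ← two_mul, h2, zero_mul]
    rw [hk, e12]
  · obtain ⟨k, hk⟩ := econj e
    refine ⟨k, Or.inr ?_⟩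
    have e12 : b₁ + φ e = 1 := by
      rw [← he]
      have e13 : φ e + 1 + φ e = 2 * φ e + 1 := by ring
      rw [e13, h2, zero_mul, zero_add]
    rw [hk, e12]

/-- The number of conjugators into the Borel subgroup. -/
theorem KK_BB {x : Cfsg.Sz F m} (h : x ^ 4 = 1) (h1 : x ≠ 1) : KK (BB F m) x = Nat.card (BB F m) := by
  classical
  obtain ⟨p, hp, hfix⟩ := fix_of_two_pow hF hm (g := x) (n := 2) h
  obtain ⟨k₀, hk₀⟩ := exists_smul_pinf hF hm hp
  have hk₀' : k₀⁻¹ • pinf F = p := by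
    rw [inv_smul_eq_iff, hk₀]
  have hiff : ∀ k : Cfsg.Sz F m, k⁻¹ * x * k ∈ BB F m ↔ k • pinf F = p := by
    intro k
    rw [MulAction.mem_stabilizer_iff, mul_smul, mul_smul, inv_smul_eq_iff]
    constructor
    · intro e
      have := two_fix_unique hF hm h h1 (p := ⟨k • pinf F, smul_mem_ovoid hF k pinf_mem⟩) (r := ⟨p, hp⟩)
        (Subtype.ext e) (Subtype.ext hfix)
      exact congrArg Subtype.val this
    · intro e
      rw [e, hfix]
  apply Nat.card_congr
  exact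
    { toFun := fun k => ⟨k₀ * k.1, by
        have := (hiff k.1).mp k.2
        show (k₀ * k.1) • pinf F = pinf F
        rw [mul_smul, this, hk₀]⟩
      invFun := fun b => ⟨k₀⁻¹ * b.1, by
        rw [hiff, mul_smul]
        have : b.1 • pinf F = pinf F := b.2
        rw [this, hk₀']⟩
      left_inv := fun k => by
        apply Subtype.ext
        simp
      right_inv := fun b => by
        apply Subtype.ext
        simp }

/-- Involutions in the Borel subgroup. -/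
theorem card_inv_BB : Nat.card {x : Cfsg.Sz F m // (x * x = 1 ∧ x ≠ 1) ∧ x ∈ BB F m} = 2 ^ (2 * m + 1) - 1 := by
  classical
  have h1 : Nat.card {b : F // b ≠ 0} = 2 ^ (2 * m + 1) - 1 := by
    rw [Nat.card_eq_fintype_card, Fintype.card_subtype_compl, Fintype.card_subtype_eq, hF]
  rw [← h1]
  symm
  apply Nat.card_congr
  refine Equiv.ofBijective (fun b => ⟨uG hF 0 b.1, ⟨(sq_one_iff hF hm 0 b.1).mpr rfl, ?_⟩, uG_mem_BB hF hm _ _⟩) ⟨?_, ?_⟩
  · intro e
    rw [← uG_zero hF hm] at e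
    exact b.2 (uG_inj hF e).2
  · intro b b' e
    exact Subtype.ext (uG_inj hF (congrArg Subtype.val e)).2
  · rintro ⟨x, ⟨h2, h3⟩, h4⟩
    have h5 : x ^ 4 = 1 := by
      have : x ^ 4 = (x * x) * (x * x) := by simp only [pow_succ, pow_zero, one_mul, mul_assoc]
      rw [this, h2, one_mul]
    obtain ⟨a, b, rfl⟩ := mem_UU_of_four hF hm h5 h4
    obtain rfl := (sq_one_iff hF hm a b).mp h2
    refine ⟨⟨b, ?_⟩, rfl⟩
    rintro rfl
    exact h3 (uG_zero hF hm)

/-- Elements of order four in the Borel subgroup. -/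
theorem card_four_BB : Nat.card {x : Cfsg.Sz F m // (x ^ 4 = 1 ∧ x * x ≠ 1) ∧ x ∈ BB F m} = (2 ^ (2 * m + 1) - 1) * 2 ^ (2 * m + 1) := by
  classical
  have h1 : Nat.card ({b : F // b ≠ 0} × F) = (2 ^ (2 * m + 1) - 1) * 2 ^ (2 * m + 1) := by
    rw [Nat.card_prod, Nat.card_eq_fintype_card, Nat.card_eq_fintype_card, Fintype.card_subtype_compl,
      Fintype.card_subtype_eq, hF]
  rw [← h1]
  symm
  apply Nat.card_congr
  refine Equiv.ofBijective (fun b => ⟨uG hF b.1.1 b.2, ⟨uG_pow_four hF hm _ _, ?_⟩, uG_mem_BB hF hm _ _⟩) ⟨?_, ?_⟩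
  · intro e
    exact b.1.2 ((sq_one_iff hF hm _ _).mp e)
  · intro b b' e
    obtain ⟨e1, e2⟩ := uG_inj hF (congrArg Subtype.val e)
    exact Prod.ext (Subtype.ext e1) e2
  · rintro ⟨x, ⟨h2, h3⟩, h4⟩
    obtain ⟨a, b, rfl⟩ := mem_UU_of_four hF hm h2 h4
    refine ⟨(⟨a, ?_⟩, b), rfl⟩
    rintro rfl
    exact h3 ((sq_one_iff hF hm 0 b).mpr rfl)

/-- The value of the count at involutions. -/
theorem KK_inv_value (N : Subgroup (Cfsg.Sz F m)) {x : Cfsg.Sz F m} (h : x * x = 1) (h1 : x ≠ 1) :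
    KK N x * (2 ^ (2 * m + 1) - 1) = Nat.card (BB F m) * Nat.card {y : Cfsg.Sz F m // (y * y = 1 ∧ y ≠ 1) ∧ y ∈ N} := by
  classical
  haveI := finite_Sz hF hm
  have hP : ∀ (k y : Cfsg.Sz F m), (y * y = 1 ∧ y ≠ 1) → (k⁻¹ * y * k * (k⁻¹ * y * k) = 1 ∧ k⁻¹ * y * k ≠ 1) := by
    rintro k y ⟨e1, e2⟩
    constructor
    · calc k⁻¹ * y * k * (k⁻¹ * y * k) = k⁻¹ * (y * y) * k := by group
        _ = 1 := by rw [e1]; group
    · intro e
      apply e2
      calc y = k * (k⁻¹ * y * k) * k⁻¹ := by group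
        _ = 1 := by rw [e]; group
  have hK : ∀ (N' : Subgroup (Cfsg.Sz F m)) (y : Cfsg.Sz F m), (y * y = 1 ∧ y ≠ 1) → KK N' y = KK N' x := by
    rintro N' y ⟨e1, e2⟩
    obtain ⟨k, rfl⟩ := inv_all_conj hF hm h h1 e1 e2
    exact KK_conj N' x k
  have h4 : x ^ 4 = 1 := by
    have : x ^ 4 = (x * x) * (x * x) := by simp only [pow_succ, pow_zero, one_mul, mul_assoc]
    rw [this, h, one_mul]
  have e1 := KK_sum N _ hP (hK N)
  have e2 := KK_sum (BB F m) _ hP (hK (BB F m))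
  rw [KK_BB hF hm h4 h1, card_inv_BB hF hm] at e2
  have hG : 0 < Nat.card (Cfsg.Sz F m) := Nat.card_pos
  apply Nat.eq_of_mul_eq_mul_left hG
  calc Nat.card (Cfsg.Sz F m) * (KK N x * (2 ^ (2 * m + 1) - 1)) =
      KK N x * (Nat.card (Cfsg.Sz F m) * (2 ^ (2 * m + 1) - 1)) := by ring
    _ = KK N x * (Nat.card (BB F m) * Nat.card {y : Cfsg.Sz F m // y * y = 1 ∧ y ≠ 1}) := by rw [e2]
    _ = Nat.card (BB F m) * (KK N x * Nat.card {y : Cfsg.Sz F m // y * y = 1 ∧ y ≠ 1}) := by ring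
    _ = Nat.card (BB F m) * (Nat.card (Cfsg.Sz F m) * Nat.card {y : Cfsg.Sz F m // (y * y = 1 ∧ y ≠ 1) ∧ y ∈ N}) := by rw [e1]
    _ = _ := by ring

/-- The value of the count at elements of order four. -/
theorem KK_four_value (N : Subgroup (Cfsg.Sz F m)) {x : Cfsg.Sz F m} (h : x ^ 4 = 1) (h1 : x * x ≠ 1) :
    KK N x * ((2 ^ (2 * m + 1) - 1) * 2 ^ (2 * m + 1)) = Nat.card (BB F m) * Nat.card {y : Cfsg.Sz F m // (y ^ 4 = 1 ∧ y * y ≠ 1) ∧ y ∈ N} := by
  classical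
  haveI := finite_Sz hF hm
  have hP : ∀ (k y : Cfsg.Sz F m), (y ^ 4 = 1 ∧ y * y ≠ 1) → ((k⁻¹ * y * k) ^ 4 = 1 ∧ k⁻¹ * y * k * (k⁻¹ * y * k) ≠ 1) := by
    rintro k y ⟨e1, e2⟩
    constructor
    · have := conj_pow (a := k⁻¹) (b := y) (i := 4)
      rw [inv_inv] at this
      rw [this, e1, mul_one, inv_mul_cancel]
    · intro e
      apply e2
      calc y * y = k * (k⁻¹ * y * k * (k⁻¹ * y * k)) * k⁻¹ := by group
        _ = 1 := by rw [e]; group
  have hinv : (uG hF (1 : F) 0)⁻¹ = uG hF 1 1 := by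
    rw [uG_inv hF hm, sg_one]
    congr 1
    ring
  have hK₀ : ∀ (N' : Subgroup (Cfsg.Sz F m)) (y : Cfsg.Sz F m), (y ^ 4 = 1 ∧ y * y ≠ 1) → KK N' y = KK N' (uG hF 1 0) := by
    rintro N' y ⟨e1, e2⟩
    obtain ⟨k, hk | hk⟩ := four_all_conj hF hm e1 e2
    · rw [← hk, KK_conj]
    · rw [← KK_conj N' y k, hk, ← hinv, KK_inv]
  have hK : ∀ (N' : Subgroup (Cfsg.Sz F m)) (y : Cfsg.Sz F m), (y ^ 4 = 1 ∧ y * y ≠ 1) → KK N' y = KK N' x := by
    intro N' y hy
    rw [hK₀ N' y hy, hK₀ N' x ⟨h, h1⟩]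
  have hx1 : x ≠ 1 := by
    rintro rfl
    exact h1 (one_mul 1)
  have e1 := KK_sum N _ hP (hK N)
  have e2 := KK_sum (BB F m) _ hP (hK (BB F m))
  rw [KK_BB hF hm h hx1, card_four_BB hF hm] at e2
  have hG : 0 < Nat.card (Cfsg.Sz F m) := Nat.card_pos
  apply Nat.eq_of_mul_eq_mul_left hG
  calc Nat.card (Cfsg.Sz F m) * (KK N x * ((2 ^ (2 * m + 1) - 1) * 2 ^ (2 * m + 1))) =
      KK N x * (Nat.card (Cfsg.Sz F m) * ((2 ^ (2 * m + 1) - 1) * 2 ^ (2 * m + 1))) := by ring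
    _ = KK N x * (Nat.card (BB F m) * Nat.card {y : Cfsg.Sz F m // y ^ 4 = 1 ∧ y * y ≠ 1}) := by rw [e2]
    _ = Nat.card (BB F m) * (KK N x * Nat.card {y : Cfsg.Sz F m // y ^ 4 = 1 ∧ y * y ≠ 1}) := by ring
    _ = Nat.card (BB F m) * (Nat.card (Cfsg.Sz F m) * Nat.card {y : Cfsg.Sz F m // (y ^ 4 = 1 ∧ y * y ≠ 1) ∧ y ∈ N}) := by rw [e1]
    _ = _ := by ring

end Cfsg.Agent.Lib.Suzuki
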