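import Cfsg.Agent.Lib.Suzuki.SolB

/-! The outer part of the solubiliser. -/

set_option autoImplicit false

namespace Cfsg.Agent.Lib.Suzuki

open Finset

theorem mem_Nz_conj {G : Type*} [Group G] (k g y : G) : y ∈ Nz (k * g * k⁻¹) ↔ k⁻¹ * y * k ∈ Nz g := by
  rw [Nz, Cz, normalizer_centralizer_conj, mem_conj_map]

variable {F : Type*} [Field F] [Fintype F] {m : ℕ}
variable (hF : Fintype.card F = 2 ^ (2 * m + 1)) (hm : 1 ≤ m)

include hF hm

theorem exists_inv_Nz {g : Cfsg.Sz F m} {e : ℕ} (he : Nat.card (Nz g) = e * Nat.card (Cz g)) (he2 : e = 2 ∨ e = 4) :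
    ∃ τ ∈ Nz g, τ * τ = 1 ∧ τ ≠ 1 := by
  haveI := finite_Sz hF hm
  have h2 : 2 ∣ Nat.card (Nz g) := by
    rw [he]
    rcases he2 with rfl | rfl
    · exact dvd_mul_right _ _
    · exact Dvd.dvd.mul_right (by norm_num) _
  obtain ⟨τ, hτ⟩ := exists_prime_orderOf_dvd_card' (G := Nz g) 2 h2
  have h5 : (τ : Cfsg.Sz F m) * τ = 1 := by
    have := pow_orderOf_eq_one τ
    rw [hτ, sq] at this
    exact congrArg Subtype.val this
  have h6 : (τ : Cfsg.Sz F m) ≠ 1 := by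
    intro h
    have : τ = 1 := Subtype.ext h
    rw [this, orderOf_one] at hτ
    omega
  exact ⟨τ, τ.2, h5, h6⟩

theorem card_X2_N {g : Cfsg.Sz F m} (hg : g ≠ 1) (hodd : ¬ 2 ∣ orderOf g) {e : ℕ}
    (he : Nat.card (Nz g) = e * Nat.card (Cz g)) (he2 : e = 2 ∨ e = 4) :
    Nat.card {y : Cfsg.Sz F m // (y * y = 1 ∧ y ≠ 1) ∧ y ∈ Nz g} = Nat.card (Cz g) := by
  obtain ⟨τ, h1, h2, h3⟩ := exists_inv_Nz hF hm he he2
  rw [← card_inv_Nz hF hm hg hodd h1 h2 h3]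
  apply Nat.card_congr
  exact Equiv.subtypeEquivRight (fun y => by tauto)

theorem card_X4_N {g : Cfsg.Sz F m} (hg : g ≠ 1) (hodd : ¬ 2 ∣ orderOf g) {e : ℕ}
    (he : Nat.card (Nz g) = e * Nat.card (Cz g)) (he2 : e = 2 ∨ e = 4) :
    Nat.card {y : Cfsg.Sz F m // (y ^ 4 = 1 ∧ y * y ≠ 1) ∧ y ∈ Nz g} = (e - 2) * Nat.card (Cz g) := by
  classical
  haveI := finite_Sz hF hm
  haveI : Fintype (Cfsg.Sz F m) := Fintype.ofFinite _
  have h2 := card_X2_N hF hm hg hodd he he2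
  have hodd' : ∀ y ∈ Cz g, y ^ 4 = 1 → y = 1 := fun y hy h4 =>
    pow_odd_eq_one_of_pow_four (odd_of_mem_centralizer hF hm hg hodd hy) h4
  have hsq : ∀ y : Cfsg.Sz F m, y * y = 1 → y ^ 4 = 1 := by
    intro y hy
    have : y ^ 4 = (y * y) * (y * y) := by simp only [pow_succ, pow_zero, one_mul, mul_assoc]
    rw [this, hy, one_mul]
  have hunion : univ.filter (fun y : Cfsg.Sz F m => y ∈ Nz g) =
      univ.filter (fun y : Cfsg.Sz F m => y ∈ Cz g) ∪
        (univ.filter (fun y : Cfsg.Sz F m => (y * y = 1 ∧ y ≠ 1) ∧ y ∈ Nz g) ∪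
          univ.filter (fun y : Cfsg.Sz F m => (y ^ 4 = 1 ∧ y * y ≠ 1) ∧ y ∈ Nz g)) := by
    ext y
    simp only [mem_filter, mem_univ, true_and, mem_union]
    constructor
    · intro hy
      by_cases hC : y ∈ Cz g
      · exact Or.inl hC
      · right
        have h4 := four_of_not_mem hF hm hg hodd hy hC
        by_cases hs : y * y = 1
        · left
          refine ⟨⟨hs, ?_⟩, hy⟩
          rintro rfl
          exact hC (Cz g).one_mem
        · right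
          exact ⟨⟨h4, hs⟩, hy⟩
    · rintro (h | ⟨-, h⟩ | ⟨-, h⟩)
      · exact Cz_le_Nz g h
      · exact h
      · exact h
  have hd1 : Disjoint (univ.filter (fun y : Cfsg.Sz F m => y ∈ Cz g))
      (univ.filter (fun y : Cfsg.Sz F m => (y * y = 1 ∧ y ≠ 1) ∧ y ∈ Nz g) ∪
          univ.filter (fun y : Cfsg.Sz F m => (y ^ 4 = 1 ∧ y * y ≠ 1) ∧ y ∈ Nz g)) := by
    rw [Finset.disjoint_left]
    intro y hy hy'
    simp only [mem_filter, mem_univ, true_and, mem_union] at hy hy'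
    rcases hy' with ⟨⟨e1, e2⟩, -⟩ | ⟨⟨e1, e2⟩, -⟩
    · exact e2 (hodd' y hy (hsq y e1))
    · apply e2
      rw [hodd' y hy e1, one_mul]
  have hd2 : Disjoint (univ.filter (fun y : Cfsg.Sz F m => (y * y = 1 ∧ y ≠ 1) ∧ y ∈ Nz g))
      (univ.filter (fun y : Cfsg.Sz F m => (y ^ 4 = 1 ∧ y * y ≠ 1) ∧ y ∈ Nz g)) := by
    rw [Finset.disjoint_left]
    intro y hy hy'
    simp only [mem_filter, mem_univ, true_and] at hy hy'
    exact hy'.1.2 hy.1.1
  have hcard := congrArg Finset.card hunion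
  rw [Finset.card_union_of_disjoint hd1, Finset.card_union_of_disjoint hd2] at hcard
  have c1 : (univ.filter (fun y : Cfsg.Sz F m => y ∈ Nz g)).card = Nat.card (Nz g) := by
    rw [Nat.card_eq_fintype_card, Fintype.card_subtype]
  have c2 : (univ.filter (fun y : Cfsg.Sz F m => y ∈ Cz g)).card = Nat.card (Cz g) := by
    rw [Nat.card_eq_fintype_card, Fintype.card_subtype]
  have c3 : (univ.filter (fun y : Cfsg.Sz F m => (y * y = 1 ∧ y ≠ 1) ∧ y ∈ Nz g)).card = Nat.card (Cz g) := by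
    rw [← h2, Nat.card_eq_fintype_card, Fintype.card_subtype]
  have c4 : (univ.filter (fun y : Cfsg.Sz F m => (y ^ 4 = 1 ∧ y * y ≠ 1) ∧ y ∈ Nz g)).card =
      Nat.card {y : Cfsg.Sz F m // (y ^ 4 = 1 ∧ y * y ≠ 1) ∧ y ∈ Nz g} := by
    rw [Nat.card_eq_fintype_card, Fintype.card_subtype]
  rw [c1, c2, c3, c4, he] at hcard
  rcases he2 with rfl | rfl
  · simp only [Nat.reduceSub, zero_mul]
    omega
  · simp only [Nat.reduceSub]
    omega

/-- The count on the side of the conjugator. -/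
theorem outer_k_side {g x k : Cfsg.Sz F m} (hg : g ≠ 1) (hodd : ¬ 2 ∣ orderOf g) {e : ℕ}
    (he : Nat.card (Nz g) = e * Nat.card (Cz g)) (he2 : e = 2 ∨ e = 4) (hx4 : x ^ 4 = 1) (hx1 : x ≠ 1)
    {p : Cfsg.suzukiOvoid F m} (hxp : x • p = p) (hk' : k⁻¹ * x * k ∈ Nz g) :
    Nat.card {y : Cfsg.Sz F m // y • p ≠ p ∧ k⁻¹ * y * k ∈ Nz g} = Nat.card (Nz g) - e := by
  classical
  haveI := finite_Sz hF hm
  haveI : Fintype (Cfsg.Sz F m) := Fintype.ofFinite _
  set p' : Cfsg.suzukiOvoid F m := k⁻¹ • p with hp'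
  have hx' : (k⁻¹ * x * k) • p' = p' := by
    rw [hp', mul_smul, mul_smul, smul_inv_smul, hxp]
  have hx4' : (k⁻¹ * x * k) ^ 4 = 1 := by
    have := conj_pow (a := k⁻¹) (b := x) (i := 4)
    rw [inv_inv] at this
    rw [this, hx4, mul_one, inv_mul_cancel]
  have hx1' : k⁻¹ * x * k ≠ 1 := by
    intro e'
    apply hx1
    calc x = k * (k⁻¹ * x * k) * k⁻¹ := by group
      _ = 1 := by rw [e']; group
  have hst := stab_count hF hm hg hodd he he2 hk' hx4' hx1' hx'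
  have hsplit : (univ.filter (fun z : Cfsg.Sz F m => z ∈ Nz g)).card =
      (univ.filter (fun z : Cfsg.Sz F m => z ∈ Nz g ∧ z • p' = p')).card +
        (univ.filter (fun z : Cfsg.Sz F m => z ∈ Nz g ∧ z • p' ≠ p')).card := by
    rw [← Finset.card_union_of_disjoint]
    · congr 1
      ext z
      simp only [mem_filter, mem_univ, true_and, mem_union]
      by_cases h5 : z • p' = p'
      · simp [h5]
      · simp [h5]
    · rw [Finset.disjoint_left]
      intro z hz hz'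
      simp only [mem_filter, mem_univ, true_and] at hz hz'
      exact hz'.2 hz.2
  have c1 : (univ.filter (fun z : Cfsg.Sz F m => z ∈ Nz g)).card = Nat.card (Nz g) := by
    rw [Nat.card_eq_fintype_card, Fintype.card_subtype]
  have c2 : (univ.filter (fun z : Cfsg.Sz F m => z ∈ Nz g ∧ z • p' = p')).card = e := by
    rw [← hst, Nat.card_eq_fintype_card, Fintype.card_subtype]
    apply congrArg Finset.card
    ext z
    simp only [mem_filter, mem_univ, true_and, Subgroup.mem_inf, MulAction.mem_stabilizer_iff]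
  rw [c1, c2] at hsplit
  have c3 : Nat.card {y : Cfsg.Sz F m // y • p ≠ p ∧ k⁻¹ * y * k ∈ Nz g} =
      (univ.filter (fun z : Cfsg.Sz F m => z ∈ Nz g ∧ z • p' ≠ p')).card := by
    rw [Nat.card_eq_fintype_card, Fintype.card_subtype]
    apply Finset.card_equiv (MulAut.conj k⁻¹).toEquiv
    intro y
    simp only [mem_filter, mem_univ, true_and, MulEquiv.toEquiv_eq_coe, MulEquiv.coe_toEquiv,
      MulAut.conj_apply, inv_inv]
    have e1 : (k⁻¹ * y * k) • p' = p' ↔ y • p = p := by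
      rw [hp', mul_smul, mul_smul, smul_inv_smul, inv_smul_eq_iff, smul_inv_smul]
    constructor
    · rintro ⟨h5, h6⟩
      exact ⟨h6, fun h7 => h5 (e1.mp h7)⟩
    · rintro ⟨h5, h6⟩
      exact ⟨fun h7 => h6 (e1.mpr h7), h5⟩
  rw [c3]
  omega

/-- The count on the side of the element. -/
theorem outer_y_side {g x y k₀ : Cfsg.Sz F m} (hg : g ≠ 1) (hodd : ¬ 2 ∣ orderOf g) (hx4 : x ^ 4 = 1) (hx1 : x ≠ 1)
    {p : Cfsg.suzukiOvoid F m} (hxp : x • p = p) (hyp : y • p ≠ p)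
    (h1 : k₀⁻¹ * x * k₀ ∈ Nz g) (h2 : k₀⁻¹ * y * k₀ ∈ Nz g) :
    Nat.card {k : Cfsg.Sz F m // k⁻¹ * x * k ∈ Nz g ∧ k⁻¹ * y * k ∈ Nz g} = Nat.card (Nz g) := by
  classical
  have hconj : ∀ k : Cfsg.Sz F m, k * g * k⁻¹ ≠ 1 ∧ ¬ 2 ∣ orderOf (k * g * k⁻¹) := by
    intro k
    constructor
    · intro e
      apply hg
      calc g = k⁻¹ * (k * g * k⁻¹) * k := by group
        _ = 1 := by rw [e]; group
    · have := orderOf_conj_general k⁻¹ g
      rw [inv_inv] at this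
      rw [this]
      exact hodd
  have hno : ¬ ∃ r : Cfsg.suzukiOvoid F m, x • r = r ∧ y • r = r := by
    rintro ⟨r, hr1, hr2⟩
    have := two_fix_unique hF hm hx4 hx1 hxp hr1
    rw [this] at hyp
    exact hyp hr2
  apply Nat.card_congr
  refine Equiv.ofBijective (fun k => ⟨k₀⁻¹ * k.1, ?_⟩) ⟨?_, ?_⟩
  · -- the element lies in the normaliser
    obtain ⟨k, hk1, hk2⟩ := k
    have e1 := unique_torus hF hm (hconj k₀).1 (hconj k₀).2 (hconj k).1 (hconj k).2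
      ((mem_Nz_conj _ _ _).mpr h1) ((mem_Nz_conj _ _ _).mpr h2)
      ((mem_Nz_conj _ _ _).mpr hk1) ((mem_Nz_conj _ _ _).mpr hk2) hno
    show k₀⁻¹ * k ∈ Subgroup.normalizer _
    rw [Subgroup.mem_normalizer_iff]
    intro h
    have e2 : ∀ (n z : Cfsg.Sz F m), z ∈ Cz (n * g * n⁻¹) ↔ n⁻¹ * z * n ∈ Cz g := fun n z => mem_centralizer_conj n g z
    have e3 : (k₀⁻¹ * k) * h * (k₀⁻¹ * k)⁻¹ = k₀⁻¹ * (k * h * k⁻¹) * k₀ := by group
    rw [e3, ← e2 k₀, e1, e2 k]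
    have e4 : k⁻¹ * (k * h * k⁻¹) * k = h := by group
    rw [e4]
  · intro a b e
    have e' : k₀⁻¹ * (a.1 : Cfsg.Sz F m) = k₀⁻¹ * b.1 := congrArg Subtype.val e
    exact Subtype.ext (mul_left_cancel e')
  · rintro ⟨n, hn⟩
    refine ⟨⟨k₀ * n, ?_, ?_⟩, ?_⟩
    · have e : (k₀ * n)⁻¹ * x * (k₀ * n) = n⁻¹ * (k₀⁻¹ * x * k₀) * n := by group
      rw [e]
      exact (Nz g).mul_mem ((Nz g).mul_mem ((Nz g).inv_mem hn) h1) hn
    · have e : (k₀ * n)⁻¹ * y * (k₀ * n) = n⁻¹ * (k₀⁻¹ * y * k₀) * n := by group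
      rw [e]
      exact (Nz g).mul_mem ((Nz g).mul_mem ((Nz g).inv_mem hn) h2) hn
    · apply Subtype.ext
      show k₀⁻¹ * (k₀ * n) = n
      group

/-- The count of the part of the solubiliser in the conjugates of a fixed normaliser. -/
theorem outer_count {g x : Cfsg.Sz F m} (hg : g ≠ 1) (hodd : ¬ 2 ∣ orderOf g) {e : ℕ}
    (he : Nat.card (Nz g) = e * Nat.card (Cz g)) (he2 : e = 2 ∨ e = 4) (hx4 : x ^ 4 = 1) (hx1 : x ≠ 1)
    {p : Cfsg.suzukiOvoid F m} (hxp : x • p = p) :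
    Nat.card (Nz g) * Nat.card {y : Cfsg.Sz F m // y • p ≠ p ∧ ∃ k : Cfsg.Sz F m, k⁻¹ * x * k ∈ Nz g ∧ k⁻¹ * y * k ∈ Nz g} =
      KK (Nz g) x * (Nat.card (Nz g) - e) := by
  classical
  haveI := finite_Sz hF hm
  haveI : Fintype (Cfsg.Sz F m) := Fintype.ofFinite _
  have key := Finset.sum_card_bipartiteAbove_eq_sum_card_bipartiteBelow
    (s := univ.filter (fun y : Cfsg.Sz F m => y • p ≠ p)) (t := univ.filter (fun k : Cfsg.Sz F m => k⁻¹ * x * k ∈ Nz g))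
    (fun y k => k⁻¹ * y * k ∈ Nz g)
  have hk : ∀ k ∈ univ.filter (fun k : Cfsg.Sz F m => k⁻¹ * x * k ∈ Nz g),
      ((univ.filter (fun y : Cfsg.Sz F m => y • p ≠ p)).bipartiteBelow (fun y k => k⁻¹ * y * k ∈ Nz g) k).card = Nat.card (Nz g) - e := by
    intro k hk
    rw [← outer_k_side hF hm hg hodd he he2 hx4 hx1 hxp (mem_filter.mp hk).2, Nat.card_eq_fintype_card, Fintype.card_subtype]
    show ((univ.filter (fun y : Cfsg.Sz F m => y • p ≠ p)).filter (fun y => k⁻¹ * y * k ∈ Nz g)).card = _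
    rw [Finset.filter_filter]
  have hy : ∀ y ∈ univ.filter (fun y : Cfsg.Sz F m => y • p ≠ p),
      ((univ.filter (fun k : Cfsg.Sz F m => k⁻¹ * x * k ∈ Nz g)).bipartiteAbove (fun y k => k⁻¹ * y * k ∈ Nz g) y).card =
        if (∃ k : Cfsg.Sz F m, k⁻¹ * x * k ∈ Nz g ∧ k⁻¹ * y * k ∈ Nz g) then Nat.card (Nz g) else 0 := by
    intro y hy
    have hyp := (mem_filter.mp hy).2
    split_ifs with hex
    · obtain ⟨k₀, h1, h2⟩ := hex
      rw [← outer_y_side hF hm hg hodd hx4 hx1 hxp hyp h1 h2, Nat.card_eq_fintype_card, Fintype.card_subtype]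
      show ((univ.filter (fun k : Cfsg.Sz F m => k⁻¹ * x * k ∈ Nz g)).filter (fun k => k⁻¹ * y * k ∈ Nz g)).card = _
      rw [Finset.filter_filter]
    · apply Finset.card_eq_zero.mpr
      apply Finset.filter_eq_empty_iff.mpr
      intro k hk hk'
      exact hex ⟨k, (mem_filter.mp hk).2, hk'⟩
  rw [Finset.sum_congr rfl hy, Finset.sum_congr rfl hk, Finset.sum_const, smul_eq_mul] at key
  rw [← Finset.sum_filter, Finset.sum_const, smul_eq_mul, Finset.filter_filter] at key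
  have c1 : (univ.filter (fun k : Cfsg.Sz F m => k⁻¹ * x * k ∈ Nz g)).card = KK (Nz g) x := by
    rw [KK, Nat.card_eq_fintype_card, Fintype.card_subtype]
  have c2 : (univ.filter (fun y : Cfsg.Sz F m => y • p ≠ p ∧ ∃ k : Cfsg.Sz F m, k⁻¹ * x * k ∈ Nz g ∧ k⁻¹ * y * k ∈ Nz g)).card =
      Nat.card {y : Cfsg.Sz F m // y • p ≠ p ∧ ∃ k : Cfsg.Sz F m, k⁻¹ * x * k ∈ Nz g ∧ k⁻¹ * y * k ∈ Nz g} := by
    rw [Nat.card_eq_fintype_card, Fintype.card_subtype]
  rw [c1, c2] at key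
  rw [← key]
  ring

/-- The outer count for an involution. -/
theorem outer_inv {g x : Cfsg.Sz F m} (hg : g ≠ 1) (hodd : ¬ 2 ∣ orderOf g) {e : ℕ}
    (he : Nat.card (Nz g) = e * Nat.card (Cz g)) (he2 : e = 2 ∨ e = 4) (hx : x * x = 1) (hx1 : x ≠ 1)
    {p : Cfsg.suzukiOvoid F m} (hxp : x • p = p) :
    Nat.card {y : Cfsg.Sz F m // y • p ≠ p ∧ ∃ k : Cfsg.Sz F m, k⁻¹ * x * k ∈ Nz g ∧ k⁻¹ * y * k ∈ Nz g} =
      (2 ^ (2 * m + 1)) ^ 2 * (Nat.card (Cz g) - 1) := by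
  have hx4 : x ^ 4 = 1 := by
    have : x ^ 4 = (x * x) * (x * x) := by simp only [pow_succ, pow_zero, one_mul, mul_assoc]
    rw [this, hx, one_mul]
  have h1 := outer_count hF hm hg hodd he he2 hx4 hx1 hxp
  have h2 := KK_inv_value hF hm (Nz g) hx hx1
  rw [card_X2_N hF hm hg hodd he he2] at h2
  have h3 : (BB F m) = MulAction.stabilizer (Cfsg.Sz F m) (pinf F) := rfl
  rw [h3, card_stab hF hm] at h2
  have hq : 0 < 2 ^ (2 * m + 1) - 1 := by
    have : 1 < 2 ^ (2 * m + 1) := Nat.one_lt_two_pow (by omega)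
    omega
  have hK : KK (Nz g) x = (2 ^ (2 * m + 1)) ^ 2 * Nat.card (Cz g) := by
    apply Nat.eq_of_mul_eq_mul_right hq
    rw [h2]
    ring
  have hc : 0 < Nat.card (Cz g) := Nat.card_pos
  have he0 : 0 < e := by omega
  rw [hK, he] at h1
  have e5 : e * Nat.card (Cz g) - e = e * (Nat.card (Cz g) - 1) := by
    rw [Nat.mul_sub, mul_one]
  rw [e5] at h1
  apply Nat.eq_of_mul_eq_mul_left (Nat.mul_pos he0 hc)
  rw [h1]
  ring

/-- The outer count for an element of order four. -/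
theorem outer_four {g x : Cfsg.Sz F m} (hg : g ≠ 1) (hodd : ¬ 2 ∣ orderOf g) {e : ℕ}
    (he : Nat.card (Nz g) = e * Nat.card (Cz g)) (he2 : e = 2 ∨ e = 4) (hx4 : x ^ 4 = 1) (hx : x * x ≠ 1)
    {p : Cfsg.suzukiOvoid F m} (hxp : x • p = p) :
    Nat.card {y : Cfsg.Sz F m // y • p ≠ p ∧ ∃ k : Cfsg.Sz F m, k⁻¹ * x * k ∈ Nz g ∧ k⁻¹ * y * k ∈ Nz g} =
      2 ^ (2 * m + 1) * (e - 2) * (Nat.card (Cz g) - 1) := by
  have hx1 : x ≠ 1 := by
    rintro rfl
    exact hx (one_mul 1)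
  have h1 := outer_count hF hm hg hodd he he2 hx4 hx1 hxp
  have h2 := KK_four_value hF hm (Nz g) hx4 hx
  rw [card_X4_N hF hm hg hodd he he2] at h2
  have h3 : (BB F m) = MulAction.stabilizer (Cfsg.Sz F m) (pinf F) := rfl
  rw [h3, card_stab hF hm] at h2
  have hq : 0 < (2 ^ (2 * m + 1) - 1) * 2 ^ (2 * m + 1) := by
    have : 1 < 2 ^ (2 * m + 1) := Nat.one_lt_two_pow (by omega)
    exact Nat.mul_pos (by omega) (by omega)
  have hK : KK (Nz g) x = 2 ^ (2 * m + 1) * (e - 2) * Nat.card (Cz g) := by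
    apply Nat.eq_of_mul_eq_mul_right hq
    rw [h2]
    ring
  have hc : 0 < Nat.card (Cz g) := Nat.card_pos
  have he0 : 0 < e := by omega
  rw [hK, he] at h1
  have e5 : e * Nat.card (Cz g) - e = e * (Nat.card (Cz g) - 1) := by
    rw [Nat.mul_sub, mul_one]
  rw [e5] at h1
  apply Nat.eq_of_mul_eq_mul_left (Nat.mul_pos he0 hc)
  rw [h1]
  ring

end Cfsg.Agent.Lib.Suzuki
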