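import Cfsg.Agent.Lib.Suzuki.SolC

/-! The solubiliser in the Suzuki group. -/

set_option autoImplicit false

namespace Cfsg.Agent.Lib.Suzuki

open Finset

variable {F : Type*} [Field F] [Fintype F] {m : ℕ}

/-- The relation describing solvable two-generated subgroups. -/
def SolR (x y : Cfsg.Sz F m) : Prop :=
  (∃ r : Cfsg.suzukiOvoid F m, x • r = r ∧ y • r = r) ∨
    (∃ g : Cfsg.Sz F m, g ≠ 1 ∧ ¬ 2 ∣ orderOf g ∧ x ∈ Nz g ∧ y ∈ Nz g)

variable (hF : Fintype.card F = 2 ^ (2 * m + 1)) (hm : 1 ≤ m)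

include hF hm

theorem solv_iff (hp : (2 * m + 1).Prime) (x y : Cfsg.Sz F m) :
    Group.IsSolvable (Subgroup.closure ({x, y} : Set (Cfsg.Sz F m))) ↔ SolR x y := by
  set M := Subgroup.closure ({x, y} : Set (Cfsg.Sz F m)) with hM
  have hxM : x ∈ M := Subgroup.subset_closure (by simp)
  have hyM : y ∈ M := Subgroup.subset_closure (by simp)
  constructor
  · intro hs
    rcases subgroup_trichotomy hF hm M with ⟨p, hpp, hfix⟩ | ⟨g, hg1, hg2, hg3⟩ | ⟨k, L, b₀, b₁, hL, h0, h1, h00, h10, h01⟩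
    · exact Or.inl ⟨⟨p, hpp⟩, Subtype.ext (hfix x hxM), Subtype.ext (hfix y hyM)⟩
    · exact Or.inr ⟨g, hg1, hg2, hg3 hxM, hg3 hyM⟩
    · exfalso
      obtain ⟨k', hk1, hcard, hdvd⟩ := subfield_param hF L h0 h1 h00 h10 h01
      have hk' : k' = m := by
        rcases (Nat.dvd_prime hp).mp hdvd with h | h
        · omega
        · omega
      have hall : ∀ z : F, z ∈ L := by
        haveI : Fintype L := Fintype.ofFinite _
        have hbij : Function.Bijective (Subtype.val : L → F) := by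
          rw [Fintype.bijective_iff_injective_and_card]
          refine ⟨Subtype.val_injective, ?_⟩
          rw [← Nat.card_eq_fintype_card, hcard, hF, hk']
        intro z
        obtain ⟨w, rfl⟩ := hbij.2 z
        exact w.2
      have htop : M.map (MulAut.conj k).toMonoidHom = ⊤ := by
        rw [eq_top_iff]
        intro z _
        rcases bruhatG hF hm z with ⟨a, b, t, rfl⟩ | ⟨x', y', a, b, t, rfl⟩
        · exact Subgroup.mul_mem _ (hL.hu _ _ (hall _) (hall _)) (hL.ht _ (hall _))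
        · exact Subgroup.mul_mem _ (Subgroup.mul_mem _ (hL.hu _ _ (hall _) (hall _)) hL.hw)
            (Subgroup.mul_mem _ (hL.hu _ _ (hall _) (hall _)) (hL.ht _ (hall _)))
      have htop' : M = ⊤ := by
        rw [eq_top_iff]
        intro z _
        have hz : k * z * k⁻¹ ∈ M.map (MulAut.conj k).toMonoidHom := by
          rw [htop]
          exact Subgroup.mem_top _
        have := (mem_conj_map M k _).mp hz
        have e : k⁻¹ * (k * z * k⁻¹) * k = z := by group
        rwa [e] at this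
      apply not_solvable_Sz hF hm
      rw [htop'] at hs
      exact solvable_of_surjective (f := (⊤ : Subgroup (Cfsg.Sz F m)).subtype) (fun z => ⟨⟨z, Subgroup.mem_top z⟩, rfl⟩)
  · rintro (⟨r, h1, h2⟩ | ⟨g, hg1, hg2, h1, h2⟩)
    · refine solvable_of_fix hF hm M r.2 ?_
      have hle : M ≤ MulAction.stabilizer (Cfsg.Sz F m) (r : Projectivization F (Fin 4 → F)) := by
        rw [hM, Subgroup.closure_le]
        rintro z (rfl | rfl)
        · exact congrArg Subtype.val h1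
        · exact congrArg Subtype.val h2
      exact fun g hg => hle hg
    · refine solvable_of_odd hF hm M hg1 hg2 ?_
      rw [hM, Subgroup.closure_le]
      rintro z (rfl | rfl)
      · exact h1
      · exact h2

omit hF hm in
theorem SolR_conj [Finite F] (k x y : Cfsg.Sz F m) : SolR (k * x * k⁻¹) (k * y * k⁻¹) ↔ SolR x y := by
  have hfwd : ∀ (k x y : Cfsg.Sz F m), SolR x y → SolR (k * x * k⁻¹) (k * y * k⁻¹) := by
    rintro k x y (⟨r, h1, h2⟩ | ⟨g, hg1, hg2, h1, h2⟩)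
    · refine Or.inl ⟨k • r, ?_, ?_⟩
      · rw [mul_smul, mul_smul, inv_smul_smul, h1]
      · rw [mul_smul, mul_smul, inv_smul_smul, h2]
    · refine Or.inr ⟨k * g * k⁻¹, ?_, ?_, ?_, ?_⟩
      · intro e
        apply hg1
        calc g = k⁻¹ * (k * g * k⁻¹) * k := by group
          _ = 1 := by rw [e]; group
      · have := orderOf_conj_general k⁻¹ g
        rw [inv_inv] at this
        rw [this]
        exact hg2
      · rw [mem_Nz_conj]
        have e : k⁻¹ * (k * x * k⁻¹) * k = x := by group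
        rwa [e]
      · rw [mem_Nz_conj]
        have e : k⁻¹ * (k * y * k⁻¹) * k = y := by group
        rwa [e]
  refine ⟨fun h => ?_, hfwd k x y⟩
  have := hfwd k⁻¹ _ _ h
  have e1 : k⁻¹ * (k * x * k⁻¹) * k⁻¹⁻¹ = x := by group
  have e2 : k⁻¹ * (k * y * k⁻¹) * k⁻¹⁻¹ = y := by group
  rwa [e1, e2] at this

omit hF hm in
theorem card_SolR_conj [Finite F] (k x : Cfsg.Sz F m) :
    Nat.card {y : Cfsg.Sz F m // SolR (k * x * k⁻¹) y} = Nat.card {y : Cfsg.Sz F m // SolR x y} := by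
  apply Nat.card_congr
  exact
    { toFun := fun y => ⟨k⁻¹ * y.1 * k, by
        have := y.2
        rw [← SolR_conj k x]
        have e : k * (k⁻¹ * y.1 * k) * k⁻¹ = y.1 := by group
        rwa [e]⟩
      invFun := fun y => ⟨k * y.1 * k⁻¹, (SolR_conj k x y.1).mpr y.2⟩
      left_inv := fun y => by
        apply Subtype.ext
        show k * (k⁻¹ * y.1 * k) * k⁻¹ = y.1
        group
      right_inv := fun y => by
        apply Subtype.ext
        show k⁻¹ * (k * y.1 * k⁻¹) * k = y.1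
        group }

/-- Every torus is conjugate to one of three. -/
theorem type_ref {gT gp gm g : Cfsg.Sz F m} {s₀ : Fˣ} (hs₀ : s₀ ≠ 1) (hT : gT = tG hF s₀) (hgp : Der gp)
    (hpo : orderOf gp = 2 ^ (2 * m + 1) + 2 ^ (m + 1) + 1) (hgm : Der gm)
    (hmo : orderOf gm = 2 ^ (2 * m + 1) - 2 ^ (m + 1) + 1) (hg : g ≠ 1) (hodd : ¬ 2 ∣ orderOf g) :
    ∃ k : Cfsg.Sz F m, Cz g = Cz (k * gT * k⁻¹) ∨ Cz g = Cz (k * gp * k⁻¹) ∨ Cz g = Cz (k * gm * k⁻¹) := by
  have hext : ∀ (k u v : Cfsg.Sz F m), Cz u = Cz v → Cz (k * u * k⁻¹) = Cz (k * v * k⁻¹) := by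
    intro k u v h
    ext z
    show z ∈ Subgroup.centralizer _ ↔ z ∈ Subgroup.centralizer _
    rw [mem_centralizer_conj, mem_centralizer_conj]
    show k⁻¹ * z * k ∈ Cz u ↔ k⁻¹ * z * k ∈ Cz v
    rw [h]
  by_cases hder : Der g
  · obtain ⟨-, -, h⟩ := main_count hF hm hgp hpo hgm hmo
    obtain ⟨k, y, hy1, hy, rfl⟩ := h g hder
    refine ⟨k, ?_⟩
    rcases hy with hy | hy
    · right; left
      exact hext k _ _ (centralizer_eq_of_mem hF hm hgp hy hy1)
    · right; right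
      exact hext k _ _ (centralizer_eq_of_mem hF hm hgm hy hy1)
  · rcases not_der_cases hF hm hg hder with h | ⟨k, s, hs, hk⟩
    · exact absurd (pow_odd_eq_one_of_pow_four hodd h) hg
    · refine ⟨k⁻¹, Or.inl ?_⟩
      have e1 : Cz (tG hF s) = Cz gT := by
        rw [hT]
        show Subgroup.centralizer _ = Subgroup.centralizer _
        rw [centralizer_tG_eq hF hm hs, centralizer_tG_eq hF hm hs₀]
      have e2 := hext k⁻¹ _ _ e1
      have e3 : k⁻¹ * tG hF s * k⁻¹⁻¹ = g := by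
        rw [← hk]
        group
      rw [e3] at e2
      exact e2

/-- The outer parts are disjoint for different types. -/
theorem outer_disjoint {g₁ g₂ x y k₁ k₂ : Cfsg.Sz F m} (hg₁ : g₁ ≠ 1) (hodd₁ : ¬ 2 ∣ orderOf g₁) (hg₂ : g₂ ≠ 1)
    (hodd₂ : ¬ 2 ∣ orderOf g₂) (hne : Nat.card (Cz g₁) ≠ Nat.card (Cz g₂)) (hx4 : x ^ 4 = 1) (hx1 : x ≠ 1)
    {p : Cfsg.suzukiOvoid F m} (hxp : x • p = p) (hyp : y • p ≠ p)
    (h1 : k₁⁻¹ * x * k₁ ∈ Nz g₁) (h2 : k₁⁻¹ * y * k₁ ∈ Nz g₁) (h3 : k₂⁻¹ * x * k₂ ∈ Nz g₂) (h4 : k₂⁻¹ * y * k₂ ∈ Nz g₂) : False := by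
  have hconj : ∀ k g : Cfsg.Sz F m, g ≠ 1 → ¬ 2 ∣ orderOf g → k * g * k⁻¹ ≠ 1 ∧ ¬ 2 ∣ orderOf (k * g * k⁻¹) := by
    intro k g hg hodd
    constructor
    · intro e
      apply hg
      calc g = k⁻¹ * (k * g * k⁻¹) * k := by group
        _ = 1 := by rw [e]; group
    · have := orderOf_conj_general k⁻¹ g
      rw [inv_inv] at this
      rw [this]
      exact hodd
  have hno : ¬ ∃ r : Cfsg.suzukiOvoid F m, x • r = r ∧ y • r = r := by
    rintro ⟨r, hr1, hr2⟩
    have := two_fix_unique hF hm hx4 hx1 hxp hr1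
    rw [this] at hyp
    exact hyp hr2
  have e1 := unique_torus hF hm (hconj k₁ g₁ hg₁ hodd₁).1 (hconj k₁ g₁ hg₁ hodd₁).2 (hconj k₂ g₂ hg₂ hodd₂).1 (hconj k₂ g₂ hg₂ hodd₂).2
    ((mem_Nz_conj _ _ _).mpr h1) ((mem_Nz_conj _ _ _).mpr h2)
    ((mem_Nz_conj _ _ _).mpr h3) ((mem_Nz_conj _ _ _).mpr h4) hno
  apply hne
  obtain ⟨e₁⟩ := centralizerConj k₁ g₁
  obtain ⟨e₂⟩ := centralizerConj k₂ g₂
  rw [show Nat.card (Cz g₁) = Nat.card (Cz (k₁ * g₁ * k₁⁻¹)) from (Nat.card_congr e₁.toEquiv).symm,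
    show Nat.card (Cz g₂) = Nat.card (Cz (k₂ * g₂ * k₂⁻¹)) from (Nat.card_congr e₂.toEquiv).symm, e1]

/-- Point stabilisers have the same order. -/
theorem card_stab_any (p : Cfsg.suzukiOvoid F m) :
    Nat.card {y : Cfsg.Sz F m // y • p = p} = (2 ^ (2 * m + 1)) ^ 2 * (2 ^ (2 * m + 1) - 1) := by
  obtain ⟨h, hh⟩ := exists_smul_pinf hF hm p.2
  rw [← card_stab hF hm]
  apply Nat.card_congr
  have hh' : h • (p : Projectivization F (Fin 4 → F)) = pinf F := hh
  have hinv : h⁻¹ • pinf F = (p : Projectivization F (Fin 4 → F)) := by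
    rw [inv_smul_eq_iff, hh']
  exact
    { toFun := fun y => ⟨h * y.1 * h⁻¹, by
        show (h * y.1 * h⁻¹) • pinf F = pinf F
        have : y.1 • (p : Projectivization F (Fin 4 → F)) = p := congrArg Subtype.val y.2
        rw [mul_smul, mul_smul, hinv, this, hh']⟩
      invFun := fun y => ⟨h⁻¹ * y.1 * h, by
        apply Subtype.ext
        show (h⁻¹ * y.1 * h) • (p : Projectivization F (Fin 4 → F)) = p
        have : y.1 • pinf F = pinf F := y.2
        rw [mul_smul, mul_smul, hh', this, hinv]⟩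
      left_inv := fun y => by
        apply Subtype.ext
        show h⁻¹ * (h * y.1 * h⁻¹) * h = y.1
        group
      right_inv := fun y => by
        apply Subtype.ext
        show h * (h⁻¹ * y.1 * h) * h⁻¹ = y.1
        group }

end Cfsg.Agent.Lib.Suzuki
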