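import Cfsg.Agent.Lib.Suzuki.SolD

/-! The values of the solubiliser in the Suzuki group. -/

set_option autoImplicit false

namespace Cfsg.Agent.Lib.Suzuki

open Finset

theorem card_or2 {α : Type*} [Finite α] (A B : α → Prop) (h : ∀ y, A y → ¬ B y) :
    Nat.card {y // A y ∨ B y} = Nat.card {y // A y} + Nat.card {y // B y} := by
  classical
  haveI : Fintype α := Fintype.ofFinite α
  simp only [Nat.card_eq_fintype_card, Fintype.card_subtype]
  rw [Finset.filter_or, Finset.card_union_of_disjoint]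
  rw [Finset.disjoint_left]
  intro y hy hy'
  exact h y (mem_filter.mp hy).2 (mem_filter.mp hy').2

variable {F : Type*} [Field F] [Fintype F] {m : ℕ}
variable (hF : Fintype.card F = 2 ^ (2 * m + 1)) (hm : 1 ≤ m)

include hF hm

/-- The decomposition of the solubiliser of a two-element. -/
theorem SolR_decomp {gT gp gm x : Cfsg.Sz F m} {s₀ : Fˣ} (hs₀ : s₀ ≠ 1) (hT : gT = tG hF s₀) (hgp : Der gp)
    (hpo : orderOf gp = 2 ^ (2 * m + 1) + 2 ^ (m + 1) + 1) (hgm : Der gm)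
    (hmo : orderOf gm = 2 ^ (2 * m + 1) - 2 ^ (m + 1) + 1)
    (hT1 : gT ≠ 1) (hTo : ¬ 2 ∣ orderOf gT) (hp1 : gp ≠ 1) (hpo' : ¬ 2 ∣ orderOf gp) (hm1 : gm ≠ 1) (hmo' : ¬ 2 ∣ orderOf gm)
    (hne1 : Nat.card (Cz gT) ≠ Nat.card (Cz gp)) (hne2 : Nat.card (Cz gT) ≠ Nat.card (Cz gm)) (hne3 : Nat.card (Cz gp) ≠ Nat.card (Cz gm))
    (hx4 : x ^ 4 = 1) (hx1 : x ≠ 1) {p : Cfsg.suzukiOvoid F m} (hxp : x • p = p) :
    Nat.card {y : Cfsg.Sz F m // SolR x y} =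
      Nat.card {y : Cfsg.Sz F m // y • p = p} +
      (Nat.card {y : Cfsg.Sz F m // y • p ≠ p ∧ ∃ k : Cfsg.Sz F m, k⁻¹ * x * k ∈ Nz gT ∧ k⁻¹ * y * k ∈ Nz gT} +
      (Nat.card {y : Cfsg.Sz F m // y • p ≠ p ∧ ∃ k : Cfsg.Sz F m, k⁻¹ * x * k ∈ Nz gp ∧ k⁻¹ * y * k ∈ Nz gp} +
      Nat.card {y : Cfsg.Sz F m // y • p ≠ p ∧ ∃ k : Cfsg.Sz F m, k⁻¹ * x * k ∈ Nz gm ∧ k⁻¹ * y * k ∈ Nz gm})) := by
  haveI := finite_Sz hF hm
  let O : Cfsg.Sz F m → Cfsg.Sz F m → Prop := fun g y => y • p ≠ p ∧ ∃ k : Cfsg.Sz F m, k⁻¹ * x * k ∈ Nz g ∧ k⁻¹ * y * k ∈ Nz g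
  have e1 := card_or2 (O gp) (O gm) (by
    rintro y ⟨hy, k₁, h1, h2⟩ ⟨-, k₂, h3, h4⟩
    exact outer_disjoint hF hm hp1 hpo' hm1 hmo' hne3 hx4 hx1 hxp hy h1 h2 h3 h4)
  have e2 := card_or2 (O gT) (fun y => O gp y ∨ O gm y) (by
    rintro y ⟨hy, k₁, h1, h2⟩ (⟨-, k₂, h3, h4⟩ | ⟨-, k₂, h3, h4⟩)
    · exact outer_disjoint hF hm hT1 hTo hp1 hpo' hne1 hx4 hx1 hxp hy h1 h2 h3 h4
    · exact outer_disjoint hF hm hT1 hTo hm1 hmo' hne2 hx4 hx1 hxp hy h1 h2 h3 h4)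
  have e3 := card_or2 (fun y : Cfsg.Sz F m => y • p = p) (fun y => O gT y ∨ O gp y ∨ O gm y) (by
    rintro y hy (⟨h, -⟩ | ⟨h, -⟩ | ⟨h, -⟩) <;> exact h hy)
  show _ = Nat.card {y : Cfsg.Sz F m // y • p = p} + (Nat.card {y // O gT y} + (Nat.card {y // O gp y} + Nat.card {y // O gm y}))
  rw [← e1, ← e2, ← e3]
  apply Nat.card_congr
  apply Equiv.subtypeEquivRight
  intro y
  constructor
  · rintro (⟨r, h1, h2⟩ | ⟨g, hg1, hg2, h1, h2⟩)
    · left
      have := two_fix_unique hF hm hx4 hx1 hxp h1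
      rw [this]
      exact h2
    · by_cases hy : y • p = p
      · exact Or.inl hy
      · right
        obtain ⟨k, hk | hk | hk⟩ := type_ref hF hm hs₀ hT hgp hpo hgm hmo hg1 hg2
        · left
          have e : Nz g = Nz (k * gT * k⁻¹) := by
            show Subgroup.normalizer _ = Subgroup.normalizer _
            rw [hk]
          rw [e, mem_Nz_conj] at h1 h2
          exact ⟨hy, k, h1, h2⟩
        · right; left
          have e : Nz g = Nz (k * gp * k⁻¹) := by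
            show Subgroup.normalizer _ = Subgroup.normalizer _
            rw [hk]
          rw [e, mem_Nz_conj] at h1 h2
          exact ⟨hy, k, h1, h2⟩
        · right; right
          have e : Nz g = Nz (k * gm * k⁻¹) := by
            show Subgroup.normalizer _ = Subgroup.normalizer _
            rw [hk]
          rw [e, mem_Nz_conj] at h1 h2
          exact ⟨hy, k, h1, h2⟩
  · have hconj : ∀ k g : Cfsg.Sz F m, g ≠ 1 → ¬ 2 ∣ orderOf g → k * g * k⁻¹ ≠ 1 ∧ ¬ 2 ∣ orderOf (k * g * k⁻¹) := by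
      intro k g hg hodd
      constructor
      · intro e
        apply hg
        calc g = k⁻¹ * (k * g * k⁻¹) * k := by group
          _ = 1 := by rw [e]; group
      · have := orderOf_conj_general k⁻¹ g
        rw [inv_inv] at this
        rw [this]
        exact hodd
    rintro (h | ⟨-, k, h1, h2⟩ | ⟨-, k, h1, h2⟩ | ⟨-, k, h1, h2⟩)
    · exact Or.inl ⟨p, hxp, h⟩
    · exact Or.inr ⟨k * gT * k⁻¹, (hconj k gT hT1 hTo).1, (hconj k gT hT1 hTo).2, (mem_Nz_conj _ _ _).mpr h1, (mem_Nz_conj _ _ _).mpr h2⟩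
    · exact Or.inr ⟨k * gp * k⁻¹, (hconj k gp hp1 hpo').1, (hconj k gp hp1 hpo').2, (mem_Nz_conj _ _ _).mpr h1, (mem_Nz_conj _ _ _).mpr h2⟩
    · exact Or.inr ⟨k * gm * k⁻¹, (hconj k gm hm1 hmo').1, (hconj k gm hm1 hmo').2, (mem_Nz_conj _ _ _).mpr h1, (mem_Nz_conj _ _ _).mpr h2⟩

omit hF hm [Fintype F] in
theorem arith_inv (Q S : ℕ) (h1 : S ≤ Q) (h2 : 2 ≤ Q) :
    Q ^ 2 * (Q - 1) + (Q ^ 2 * (Q - 1 - 1) + (Q ^ 2 * (Q + S + 1 - 1) + Q ^ 2 * (Q - S + 1 - 1))) = Q ^ 2 * (4 * Q - 3) := by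
  have h3 : 3 ≤ 4 * Q := by omega
  have h4 : 1 ≤ Q := by omega
  have h5 : 1 ≤ Q - 1 := by omega
  rw [Nat.add_sub_cancel, Nat.add_sub_cancel]
  zify [h1, h3, h4, h5, h2]
  rw [show ((Q : ℤ) - 1 - 1) = (Q : ℤ) - 1 - 1 from rfl]
  ring

omit hF hm [Fintype F] in
theorem arith_four (Q S : ℕ) (h1 : S ≤ Q) (h2 : 2 ≤ Q) :
    Q ^ 2 * (Q - 1) + (Q * (2 - 2) * (Q - 1 - 1) + (Q * (4 - 2) * (Q + S + 1 - 1) + Q * (4 - 2) * (Q - S + 1 - 1))) = Q ^ 2 * (Q + 3) := by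
  have h4 : 1 ≤ Q := by omega
  rw [Nat.add_sub_cancel, Nat.add_sub_cancel]
  simp only [Nat.reduceSub, mul_zero, zero_mul, zero_add]
  zify [h1, h4]
  ring

/-- The data of the three tori. -/
theorem three_tori : ∃ (gT gp gm : Cfsg.Sz F m) (s₀ : Fˣ), s₀ ≠ 1 ∧ gT = tG hF s₀ ∧ Der gp ∧
    orderOf gp = 2 ^ (2 * m + 1) + 2 ^ (m + 1) + 1 ∧ Der gm ∧ orderOf gm = 2 ^ (2 * m + 1) - 2 ^ (m + 1) + 1 ∧
    gT ≠ 1 ∧ ¬ 2 ∣ orderOf gT ∧ gp ≠ 1 ∧ ¬ 2 ∣ orderOf gp ∧ gm ≠ 1 ∧ ¬ 2 ∣ orderOf gm ∧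
    Nat.card (Cz gT) = 2 ^ (2 * m + 1) - 1 ∧ Nat.card (Cz gp) = 2 ^ (2 * m + 1) + 2 ^ (m + 1) + 1 ∧
    Nat.card (Cz gm) = 2 ^ (2 * m + 1) - 2 ^ (m + 1) + 1 ∧
    Nat.card (Nz gT) = 2 * Nat.card (Cz gT) ∧ Nat.card (Nz gp) = 4 * Nat.card (Cz gp) ∧
    Nat.card (Nz gm) = 4 * Nat.card (Cz gm) := by
  obtain ⟨s₀, hs₀⟩ := exists_unit_ne_one hF hm
  obtain ⟨gp, hgp, hpo⟩ := exists_order_plus hF hm
  obtain ⟨gm, hgm, hmo⟩ := exists_order_minus hF hm
  have hT1 : tG hF s₀ ≠ 1 := by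
    intro e
    rw [← tG_one hF] at e
    exact hs₀ (tG_inj hF e)
  have hTo : ¬ 2 ∣ orderOf (tG hF s₀) := odd_of_conj_tG hF (k := 1) (s := s₀) (by simp)
  have hTder : ¬ Der (tG hF s₀) := fun h => h _ pinf_mem (tG_smul_pinf hF s₀)
  refine ⟨tG hF s₀, gp, gm, s₀, hs₀, rfl, hgp, hpo, hgm, hmo, hT1, hTo, der_ne_one hF hm hgp, der_odd hF hm hgp,
    der_ne_one hF hm hgm, der_odd hF hm hgm, ?_, card_centralizer_plus hF hm hgp hpo, card_centralizer_minus hF hm hgm hmo,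
    card_Nz_split hF hm hT1 hTo hTder, der_normalizer_card hF hm hgp, der_normalizer_card hF hm hgm⟩
  show Nat.card (Subgroup.centralizer _) = _
  rw [centralizer_tG_eq hF hm hs₀, card_TT hF hm]

/-- The solubiliser of an involution. -/
theorem card_SolR_inv {x : Cfsg.Sz F m} (hx : x * x = 1) (hx1 : x ≠ 1) :
    Nat.card {y : Cfsg.Sz F m // SolR x y} = (2 ^ (2 * m + 1)) ^ 2 * (4 * 2 ^ (2 * m + 1) - 3) := by
  obtain ⟨gT, gp, gm, s₀, hs₀, hT, hgp, hpo, hgm, hmo, hT1, hTo, hp1, hpo', hm1, hmo', cT, cp, cm, nT, np, nm⟩ := three_tori hF hm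
  have hsig := sig_lt_card (m := m) hm
  have ham := am_gt m hm
  have hap := am_lt_ap m
  have hq1 : 1 < 2 ^ (2 * m + 1) := Nat.one_lt_two_pow (by omega)
  have hs4 := four_le_sig (m := m) hm
  have hne1 : Nat.card (Cz gT) ≠ Nat.card (Cz gp) := by
    rw [cT, cp]
    omega
  have hne2 : Nat.card (Cz gT) ≠ Nat.card (Cz gm) := by
    rw [cT, cm]
    omega
  have hne3 : Nat.card (Cz gp) ≠ Nat.card (Cz gm) := by
    rw [cp, cm]
    omega
  have hx4 : x ^ 4 = 1 := by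
    have : x ^ 4 = (x * x) * (x * x) := by simp only [pow_succ, pow_zero, one_mul, mul_assoc]
    rw [this, hx, one_mul]
  obtain ⟨p₀, hp₀, hfix⟩ := fix_of_two_pow hF hm (g := x) (n := 2) hx4
  set p : Cfsg.suzukiOvoid F m := ⟨p₀, hp₀⟩ with hp
  have hxp : x • p = p := Subtype.ext hfix
  rw [SolR_decomp hF hm hs₀ hT hgp hpo hgm hmo hT1 hTo hp1 hpo' hm1 hmo' hne1 hne2 hne3 hx4 hx1 hxp,
    card_stab_any hF hm, outer_inv hF hm hT1 hTo nT (Or.inl rfl) hx hx1 hxp,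
    outer_inv hF hm hp1 hpo' np (Or.inr rfl) hx hx1 hxp, outer_inv hF hm hm1 hmo' nm (Or.inr rfl) hx hx1 hxp, cT, cp, cm]
  exact arith_inv _ _ (by omega) (by omega)

/-- The solubiliser of an element of order four. -/
theorem card_SolR_four {x : Cfsg.Sz F m} (hx4 : x ^ 4 = 1) (hx : x * x ≠ 1) :
    Nat.card {y : Cfsg.Sz F m // SolR x y} = (2 ^ (2 * m + 1)) ^ 2 * (2 ^ (2 * m + 1) + 3) := by
  obtain ⟨gT, gp, gm, s₀, hs₀, hT, hgp, hpo, hgm, hmo, hT1, hTo, hp1, hpo', hm1, hmo', cT, cp, cm, nT, np, nm⟩ := three_tori hF hm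
  have hsig := sig_lt_card (m := m) hm
  have ham := am_gt m hm
  have hap := am_lt_ap m
  have hq1 : 1 < 2 ^ (2 * m + 1) := Nat.one_lt_two_pow (by omega)
  have hs4 := four_le_sig (m := m) hm
  have hne1 : Nat.card (Cz gT) ≠ Nat.card (Cz gp) := by
    rw [cT, cp]
    omega
  have hne2 : Nat.card (Cz gT) ≠ Nat.card (Cz gm) := by
    rw [cT, cm]
    omega
  have hne3 : Nat.card (Cz gp) ≠ Nat.card (Cz gm) := by
    rw [cp, cm]
    omega
  have hx1 : x ≠ 1 := by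
    rintro rfl
    exact hx (one_mul 1)
  obtain ⟨p₀, hp₀, hfix⟩ := fix_of_two_pow hF hm (g := x) (n := 2) hx4
  set p : Cfsg.suzukiOvoid F m := ⟨p₀, hp₀⟩ with hp
  have hxp : x • p = p := Subtype.ext hfix
  rw [SolR_decomp hF hm hs₀ hT hgp hpo hgm hmo hT1 hTo hp1 hpo' hm1 hmo' hne1 hne2 hne3 hx4 hx1 hxp,
    card_stab_any hF hm, outer_four hF hm hT1 hTo nT (Or.inl rfl) hx4 hx hxp,
    outer_four hF hm hp1 hpo' np (Or.inr rfl) hx4 hx hxp, outer_four hF hm hm1 hmo' nm (Or.inr rfl) hx4 hx hxp, cT, cp, cm]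
  exact arith_four _ _ (by omega) (by omega)

/-- The solubiliser of a derangement. -/
theorem card_SolR_der {x : Cfsg.Sz F m} (hx : Der x) :
    Nat.card {y : Cfsg.Sz F m // SolR x y} = 4 * Nat.card (Cz x) := by
  rw [← der_normalizer_card hF hm hx]
  apply Nat.card_congr
  apply Equiv.subtypeEquivRight
  intro y
  have hx1 := der_ne_one hF hm hx
  have hxo := der_odd hF hm hx
  constructor
  · rintro (⟨r, h1, -⟩ | ⟨g, hg1, hg2, h1, h2⟩)
    · exact absurd (congrArg Subtype.val h1) (hx _ r.2)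
    · have h3 := odd_mem_Cz hF hm hg1 hg2 h1 hxo
      have e := centralizer_eq_of_odd hF hm hg1 hg2 h3 hx1
      show y ∈ Subgroup.normalizer _
      rw [e]
      exact h2
  · intro h
    exact Or.inr ⟨x, hx1, hxo, Cz_le_Nz x (self_mem_Cz x), h⟩

/-- The Weyl element normalises the split torus. -/
theorem wG_mem_normalizer_TT : wG hF hm ∈ Subgroup.normalizer ((TT hF : Subgroup (Cfsg.Sz F m)) : Set (Cfsg.Sz F m)) := by
  rw [Subgroup.mem_normalizer_iff]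
  intro h
  have hwi := wG_inv hF hm
  constructor
  · rintro ⟨t, rfl⟩
    refine ⟨t⁻¹, ?_⟩
    have e := wG_tG_wG hF hm t
    rw [hwi]
    exact e.symm
  · rintro ⟨t, ht⟩
    have ht' : tG hF t = wG hF hm * h * (wG hF hm)⁻¹ := ht
    refine ⟨t⁻¹, ?_⟩
    show tG hF t⁻¹ = h
    have e := wG_tG_wG hF hm t
    rw [ht', hwi] at e
    have e2 : wG hF hm * (wG hF hm * h * wG hF hm) * wG hF hm = (wG hF hm * wG hF hm) * h * (wG hF hm * wG hF hm) := by group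
    rw [e2, wG_sq, one_mul, mul_one] at e
    exact e.symm

/-- The solubiliser of an element of the split torus. -/
theorem card_SolR_split {s : Fˣ} (hs : s ≠ 1) :
    Nat.card {y : Cfsg.Sz F m // SolR (tG hF s) y} = 2 * (2 ^ (2 * m + 1)) ^ 2 * (2 ^ (2 * m + 1) - 1) := by
  classical
  haveI := finite_Sz hF hm
  have hT1 : tG hF s ≠ 1 := by
    intro e
    rw [← tG_one hF] at e
    exact hs (tG_inj hF e)
  have hTo : ¬ 2 ∣ orderOf (tG hF s) := odd_of_conj_tG hF (k := 1) (s := s) (by simp)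
  have hTN : Nz (tG hF s) = Subgroup.normalizer ((TT hF : Subgroup (Cfsg.Sz F m)) : Set (Cfsg.Sz F m)) := by
    show Subgroup.normalizer _ = _
    have e0 : Cz (tG hF s) = TT hF := centralizer_tG_eq hF hm hs
    rw [e0]
  have h0 : pt m (0 : F) 0 ≠ pinf F := pt_ne_pinf _ _
  let A : Cfsg.Sz F m → Prop := fun y => y • pinf F = pinf F
  let B : Cfsg.Sz F m → Prop := fun y => y • pt m (0 : F) 0 = pt m (0 : F) 0 ∧ y • pinf F ≠ pinf F
  let C : Cfsg.Sz F m → Prop := fun y => ∃ t : Fˣ, y = wG hF hm * tG hF t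
  have hCA : ∀ y, C y → y • pinf F = pt m (0 : F) 0 ∧ y • pt m (0 : F) 0 = pinf F := by
    rintro y ⟨t, rfl⟩
    rw [mul_smul, mul_smul, tG_smul_pinf hF, tG_smul_pt_zero hF, wG_smul_pinf hF hm, wG_smul_pt_zero hF hm]
    exact ⟨rfl, rfl⟩
  have e1 := card_or2 B C (by
    rintro y ⟨h1, -⟩ hc
    rw [(hCA y hc).2] at h1
    exact h0 h1.symm)
  have e2 := card_or2 A (fun y => B y ∨ C y) (by
    rintro y ha (⟨-, h⟩ | hc)
    · exact h ha
    · have := (hCA y hc).1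
      have ha' : y • pinf F = pinf F := ha
      rw [ha'] at this
      exact h0 this.symm)
  have hiff : ∀ y, SolR (tG hF s) y ↔ A y ∨ B y ∨ C y := by
    intro y
    constructor
    · rintro (⟨r, h1, h2⟩ | ⟨g, hg1, hg2, h1, h2⟩)
      · rcases tG_fix_cases hF hm hs r.2 (congrArg Subtype.val h1) with e | e
        · left
          have : y • (r : Projectivization F (Fin 4 → F)) = r := congrArg Subtype.val h2
          rw [e] at this
          exact this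
        · by_cases ha : A y
          · exact Or.inl ha
          · right; left
            refine ⟨?_, ha⟩
            have : y • (r : Projectivization F (Fin 4 → F)) = r := congrArg Subtype.val h2
            rw [e] at this
            exact this
      · have h3 := odd_mem_Cz hF hm hg1 hg2 h1 hTo
        have e := centralizer_eq_of_odd hF hm hg1 hg2 h3 hT1
        have h4 : y ∈ Nz (tG hF s) := by
          show y ∈ Subgroup.normalizer _
          have e' : Cz (tG hF s) = Cz g := e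
          rw [e']
          exact h2
        rw [hTN] at h4
        rcases normalizer_TT_cases hF hm hs h4 with ⟨t, rfl⟩ | ⟨t, rfl⟩
        · left
          exact tG_smul_pinf hF t
        · right; right
          exact ⟨t, rfl⟩
    · rintro (h | ⟨h, -⟩ | ⟨t, rfl⟩)
      · exact Or.inl ⟨⟨pinf F, pinf_mem⟩, Subtype.ext (tG_smul_pinf hF s), Subtype.ext h⟩
      · exact Or.inl ⟨⟨pt m (0 : F) 0, pt_mem _ _⟩, Subtype.ext (tG_smul_pt_zero hF s), Subtype.ext h⟩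
      · refine Or.inr ⟨tG hF s, hT1, hTo, Cz_le_Nz _ (self_mem_Cz _), ?_⟩
        rw [hTN]
        refine Subgroup.mul_mem _ (wG_mem_normalizer_TT hF hm) (Subgroup.le_normalizer ⟨t, rfl⟩)
  have hA : Nat.card {y // A y} = (2 ^ (2 * m + 1)) ^ 2 * (2 ^ (2 * m + 1) - 1) :=
    card_stab_any hF hm ⟨pinf F, pinf_mem⟩ ▸ (Nat.card_congr (Equiv.subtypeEquivRight (fun y => ⟨fun h => Subtype.ext h, fun h => congrArg Subtype.val h⟩)))
  have hB0 : Nat.card {y : Cfsg.Sz F m // y • pt m (0 : F) 0 = pt m (0 : F) 0} = (2 ^ (2 * m + 1)) ^ 2 * (2 ^ (2 * m + 1) - 1) :=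
    card_stab_any hF hm ⟨pt m (0 : F) 0, pt_mem _ _⟩ ▸ (Nat.card_congr (Equiv.subtypeEquivRight (fun y => ⟨fun h => Subtype.ext h, fun h => congrArg Subtype.val h⟩)))
  have hTc : Nat.card {y : Cfsg.Sz F m // y • pt m (0 : F) 0 = pt m (0 : F) 0 ∧ y • pinf F = pinf F} = 2 ^ (2 * m + 1) - 1 := by
    rw [← card_TT hF hm]
    apply Nat.card_congr
    apply Equiv.subtypeEquivRight
    intro y
    constructor
    · rintro ⟨h1, h2⟩
      obtain ⟨t, ht⟩ := (fix_two_iff hF hm y).mp ⟨h2, h1⟩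
      exact ⟨t, ht.symm⟩
    · rintro ⟨t, rfl⟩
      exact ⟨tG_smul_pt_zero hF t, tG_smul_pinf hF t⟩
  have hBc := card_or2 (fun y : Cfsg.Sz F m => y • pt m (0 : F) 0 = pt m (0 : F) 0 ∧ y • pinf F = pinf F) B (by
    rintro y ⟨-, h⟩ ⟨-, h'⟩
    exact h' h)
  have hBe : Nat.card {y : Cfsg.Sz F m // (y • pt m (0 : F) 0 = pt m (0 : F) 0 ∧ y • pinf F = pinf F) ∨ B y} =
      Nat.card {y : Cfsg.Sz F m // y • pt m (0 : F) 0 = pt m (0 : F) 0} := by
    apply Nat.card_congr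
    apply Equiv.subtypeEquivRight
    intro y
    constructor
    · rintro (⟨h, -⟩ | ⟨h, -⟩) <;> exact h
    · intro h
      by_cases h' : y • pinf F = pinf F
      · exact Or.inl ⟨h, h'⟩
      · exact Or.inr ⟨h, h'⟩
  have hCc : Nat.card {y // C y} = 2 ^ (2 * m + 1) - 1 := by
    rw [← card_TT hF hm]
    apply Nat.card_congr
    refine Equiv.ofBijective (fun y => ⟨(wG hF hm)⁻¹ * y.1, ?_⟩) ⟨?_, ?_⟩
    · obtain ⟨y, t, rfl⟩ := y
      rw [inv_mul_cancel_left]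
      exact ⟨t, rfl⟩
    · intro a b e
      have e' : (wG hF hm)⁻¹ * (a : Cfsg.Sz F m) = (wG hF hm)⁻¹ * b := congrArg Subtype.val e
      exact Subtype.ext (mul_left_cancel e')
    · rintro ⟨_, t, rfl⟩
      refine ⟨⟨wG hF hm * tG hF t, t, rfl⟩, ?_⟩
      apply Subtype.ext
      show (wG hF hm)⁻¹ * (wG hF hm * tG hF t) = tG hF t
      rw [inv_mul_cancel_left]
  have hmain : Nat.card {y : Cfsg.Sz F m // SolR (tG hF s) y} = Nat.card {y // A y ∨ B y ∨ C y} :=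
    Nat.card_congr (Equiv.subtypeEquivRight hiff)
  rw [hmain, e2, e1, hA, hCc]
  rw [hBe, hB0, hTc] at hBc
  have hq1 : 1 < 2 ^ (2 * m + 1) := Nat.one_lt_two_pow (by omega)
  have hBv : Nat.card {y // B y} + (2 ^ (2 * m + 1) - 1) = (2 ^ (2 * m + 1)) ^ 2 * (2 ^ (2 * m + 1) - 1) := by
    rw [hBc]
    ring
  rw [← add_assoc _ (Nat.card {y // B y}), add_assoc, hBv] 
  ring

end Cfsg.Agent.Lib.Suzuki
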