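import Cfsg.Agent.Lib.Suzuki.SylowT
import Cfsg.Prelude.Def_Transfer

/-! Elementary abelian TI-subgroups of the Suzuki group. -/

set_option autoImplicit false

namespace Cfsg.Agent.Lib.Suzuki

open Matrix
open scoped Pointwise

variable {F : Type*} [Field F] [Fintype F] {m : ℕ}
variable (hF : Fintype.card F = 2 ^ (2 * m + 1)) (hm : 1 ≤ m)

/-- A subgroup of the centre of `U` attached to an additive subgroup of the field. -/
def zSub (A : AddSubgroup F) : Subgroup (Cfsg.Sz F m) where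
  carrier := {g | ∃ b ∈ A, g = uG hF 0 b}
  mul_mem' := by
    rintro _ _ ⟨a, ha, rfl⟩ ⟨c, hc, rfl⟩
    refine ⟨a + c, A.add_mem ha hc, ?_⟩
    rw [uG_mul hF, sg_zero]
    congr 1
    · ring
    · ring
  one_mem' := ⟨0, A.zero_mem, (uG_zero hF hm).symm⟩
  inv_mem' := by
    rintro _ ⟨a, ha, rfl⟩
    refine ⟨a, ha, ?_⟩
    rw [uG_inv hF hm, sg_zero]
    congr 1
    ring

include hF hm

omit hm in
theorem z_mul (b c : F) : uG hF 0 b * uG hF 0 c = uG hF 0 (b + c) := by
  rw [uG_mul hF, sg_zero]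
  congr 1
  · ring
  · ring

theorem z_inv (b : F) : (uG hF 0 b)⁻¹ = uG hF 0 b := by
  rw [uG_inv hF hm, sg_zero]
  congr 1
  ring

theorem z_ne_one {b : F} (hb : b ≠ 0) : uG hF 0 b ≠ 1 := by
  intro h
  rw [← uG_zero hF hm] at h
  exact hb (uG_inj hF h).2

/-- A subfield with `2 ^ n` elements. -/
theorem exists_subfield_ti {n : ℕ} (hn : n ≠ 0) (hdvd : n ∣ 2 * m + 1) :
    ∃ A : Subfield F, Nat.card A = 2 ^ n := by
  haveI := charP_two hF
  letI : Algebra (ZMod 2) F := ZMod.algebra F 2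
  have hfr : Module.finrank (ZMod 2) F = 2 * m + 1 := by
    have h1 := Module.card_eq_pow_finrank (K := ZMod 2) (V := F)
    rw [hF, ZMod.card] at h1
    exact (Nat.pow_right_injective (le_refl 2) h1).symm
  haveI : Fact (Nat.Prime 2) := ⟨Nat.prime_two⟩
  have hfr2 : Module.finrank (ZMod 2) (GaloisField 2 n) = n := GaloisField.finrank 2 hn
  obtain ⟨f⟩ : Nonempty (GaloisField 2 n →ₐ[ZMod 2] F) :=
    FiniteField.nonempty_algHom_of_finrank_dvd (by rw [hfr2, hfr]; exact hdvd)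
  refine ⟨f.toRingHom.fieldRange, ?_⟩
  have hinj : Function.Injective f.toRingHom := f.toRingHom.injective
  have h1 : Nat.card f.toRingHom.fieldRange = Nat.card (GaloisField 2 n) := by
    refine (Nat.card_congr (Equiv.ofInjective f.toRingHom hinj)).symm
  rw [h1, GaloisField.card 2 n hn]

theorem ti_of_dvd {n : ℕ} (hn : n ≠ 0) (hdvd : n ∣ 2 * m + 1) :
    ∃ E : Subgroup (Cfsg.Sz F m), Cfsg.IsElementaryAbelian 2 E ∧ Nat.card E = 2 ^ n ∧
      ∀ x : Cfsg.Sz F m, E ⊓ E.map (MulAut.conj x).toMonoidHom ≠ ⊥ →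
        x ∈ Subgroup.normalizer (E : Set (Cfsg.Sz F m)) := by
  obtain ⟨A, hA⟩ := exists_subfield_ti hF hm hn hdvd
  refine ⟨zSub hF hm A.toAddSubgroup, ⟨⟨⟨?_⟩⟩, ?_⟩, ?_, ?_⟩
  · rintro ⟨_, b, hb, rfl⟩ ⟨_, c, hc, rfl⟩
    apply Subtype.ext
    show uG hF 0 b * uG hF 0 c = uG hF 0 c * uG hF 0 b
    rw [z_mul hF, z_mul hF, add_comm]
  · rintro _ ⟨b, hb, rfl⟩
    rw [sq]
    exact (sq_one_iff hF hm 0 b).mpr rfl
  · rw [← hA]
    refine (Nat.card_congr (Equiv.ofBijective (fun b : A => (⟨uG hF 0 b, ⟨b, b.2, rfl⟩⟩ : zSub hF hm A.toAddSubgroup)) ?_)).symm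
    constructor
    · intro b c h
      exact Subtype.ext (uG_inj hF (congrArg Subtype.val h)).2
    · rintro ⟨_, b, hb, rfl⟩
      exact ⟨⟨b, hb⟩, rfl⟩
  · intro x hx
    obtain ⟨y, hy, hy1⟩ := (Subgroup.ne_bot_iff_exists_ne_one.mp hx) |> fun ⟨y, hy⟩ =>
      (⟨y.1, y.2, fun e => hy (Subtype.ext e)⟩ : ∃ y ∈ zSub hF hm A.toAddSubgroup ⊓ (zSub hF hm A.toAddSubgroup).map (MulAut.conj x).toMonoidHom, y ≠ 1)
    obtain ⟨⟨b, hb, rfl⟩, c', ⟨c, hc, rfl⟩, hc2⟩ := hy
    have hc3 : x * uG hF 0 c * x⁻¹ = uG hF 0 b := hc2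
    have hb0 : b ≠ 0 := by
      rintro rfl
      exact hy1 (uG_zero hF hm)
    have hc0 : c ≠ 0 := by
      rintro rfl
      rw [uG_zero hF hm, mul_one, mul_inv_cancel] at hc3
      exact hy1 hc3.symm
    -- `x` fixes infinity
    have hfix : x ∈ BB F m := by
      rw [MulAction.mem_stabilizer_iff]
      have hmem := smul_mem_ovoid hF x (pinf_mem (m := m))
      rcases (mem_ovoid _).mp hmem with h4 | ⟨x', y', h4⟩
      · exact h4
      · exfalso
        have h7 : uG hF 0 b • (x • pinf F) = x • pinf F := by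
          rw [← hc3]
          simp only [mul_smul, inv_smul_smul, uG_smul_pinf hF]
        rw [h4] at h7
        exact hb0 (uG_fix hF hm h7).2
    obtain ⟨e, f, t, rfl⟩ := (fix_pinf_iff hF hm x).mp hfix
    have hconj : ∀ d : F, (uG hF e f * tG hF t) * uG hF 0 d * (uG hF e f * tG hF t)⁻¹ =
        uG hF 0 ((t : F) ^ (2 ^ (m + 1) + 1) * d) := by
      intro d
      rw [conj_BB hF hm, mul_zero, sg_zero]
      congr 1
      ring
    rw [hconj] at hc3
    have hz : (t : F) ^ (2 ^ (m + 1) + 1) * c = b := (uG_inj hF hc3).2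
    have hzA : (t : F) ^ (2 ^ (m + 1) + 1) ∈ A := by
      have : (t : F) ^ (2 ^ (m + 1) + 1) = b * c⁻¹ := by
        rw [← hz]
        field_simp
      rw [this]
      exact A.mul_mem hb (A.inv_mem hc)
    rw [Subgroup.mem_normalizer_iff]
    intro y
    constructor
    · rintro ⟨d, hd, rfl⟩
      rw [hconj]
      exact ⟨_, A.mul_mem hzA hd, rfl⟩
    · rintro ⟨d, hd, hd2⟩
      refine ⟨((t : F) ^ (2 ^ (m + 1) + 1))⁻¹ * d, A.mul_mem (A.inv_mem hzA) hd, ?_⟩
      have h5 : y = (uG hF e f * tG hF t)⁻¹ * uG hF 0 d * (uG hF e f * tG hF t) := by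
        rw [← hd2]
        group
      have h6 : (uG hF e f * tG hF t) * uG hF 0 (((t : F) ^ (2 ^ (m + 1) + 1))⁻¹ * d) * (uG hF e f * tG hF t)⁻¹ =
          uG hF 0 d := by
        rw [hconj]
        congr 1
        have : (t : F) ^ (2 ^ (m + 1) + 1) ≠ 0 := pow_ne_zero _ t.ne_zero
        field_simp
      rw [h5, ← h6]
      group

theorem dvd_of_ti {n : ℕ} (hn : 2 ≤ n) {E : Subgroup (Cfsg.Sz F m)}
    (hE : Cfsg.IsElementaryAbelian 2 E) (hcard : Nat.card E = 2 ^ n)
    (hTI : ∀ x : Cfsg.Sz F m, E ⊓ E.map (MulAut.conj x).toMonoidHom ≠ ⊥ →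
        x ∈ Subgroup.normalizer (E : Set (Cfsg.Sz F m))) : n ∣ 2 * m + 1 := by
  classical
  haveI := finite_Sz hF hm
  have hP : IsPGroup 2 E := by
    rintro ⟨x, hx⟩
    refine ⟨1, ?_⟩
    apply Subtype.ext
    simpa using hE.2 x hx
  obtain ⟨Q, hQ⟩ := hP.exists_le_sylow
  obtain ⟨k, hk⟩ := exists_conj hF hm Q
  -- the additive subgroup
  let A : AddSubgroup F :=
    { carrier := {b | k * uG hF 0 b * k⁻¹ ∈ E}
      zero_mem' := by
        show k * uG hF 0 0 * k⁻¹ ∈ E
        rw [uG_zero hF hm, mul_one, mul_inv_cancel]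
        exact E.one_mem
      add_mem' := by
        intro a b ha hb
        show k * uG hF 0 (a + b) * k⁻¹ ∈ E
        have e1 : k * uG hF 0 (a + b) * k⁻¹ = (k * uG hF 0 a * k⁻¹) * (k * uG hF 0 b * k⁻¹) := by
          rw [← z_mul hF]
          group
        rw [e1]
        exact E.mul_mem ha hb
      neg_mem' := by
        intro a ha
        show k * uG hF 0 (-a) * k⁻¹ ∈ E
        have e1 : -a = a := by
          have h2 := two_zero hF
          grind
        rw [e1]
        exact ha }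
  have hAmem : ∀ b, b ∈ A ↔ k * uG hF 0 b * k⁻¹ ∈ E := fun b => Iff.rfl
  have hcardA : Nat.card A = 2 ^ n := by
    rw [← hcard]
    refine Nat.card_congr (Equiv.ofBijective (fun b : A => (⟨k * uG hF 0 b * k⁻¹, b.2⟩ : E)) ?_)
    constructor
    · intro b c h
      have h1 : k * uG hF 0 b * k⁻¹ = k * uG hF 0 c * k⁻¹ := congrArg Subtype.val h
      have h2 : uG hF 0 (b : F) = uG hF 0 (c : F) := by simpa using h1
      exact Subtype.ext (uG_inj hF h2).2
    · rintro ⟨x, hx⟩
      obtain ⟨a, b, hab⟩ := (hk x).mp (hQ hx)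
      have hsq : (k⁻¹ * x * k) * (k⁻¹ * x * k) = 1 := by
        have h1 : x ^ 2 = 1 := hE.2 x hx
        have : (k⁻¹ * x * k) * (k⁻¹ * x * k) = k⁻¹ * x ^ 2 * k := by
          rw [sq]
          group
        rw [this, h1]
        group
      rw [hab, sq_one_iff hF hm] at hsq
      subst hsq
      have hx2 : x = k * uG hF 0 b * k⁻¹ := by
        rw [← hab]
        group
      refine ⟨⟨b, ?_⟩, Subtype.ext hx2.symm⟩
      show k * uG hF 0 b * k⁻¹ ∈ E
      rw [← hx2]
      exact hx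
  -- a nonzero element
  have hn4 : 1 < Nat.card A := by
    rw [hcardA]
    exact Nat.one_lt_two_pow (by omega)
  haveI : Finite A := Nat.finite_of_card_ne_zero (by omega)
  obtain ⟨⟨a0, ha0⟩, ha00⟩ : ∃ a : A, a ≠ 0 := by
    haveI : Nontrivial A := Finite.one_lt_card_iff_nontrivial.mp hn4
    exact exists_ne 0
  have ha0ne : a0 ≠ 0 := fun h => ha00 (Subtype.ext h)
  -- closure property
  have hkey : ∀ a b c : F, a ∈ A → a ≠ 0 → b ∈ A → c ∈ A → b * c / a ∈ A := by
    intro a b c ha ha' hb hc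
    by_cases hb0 : b = 0
    · rw [hb0, zero_mul, zero_div]
      exact A.zero_mem
    have hz : b / a ≠ 0 := div_ne_zero hb0 ha'
    obtain ⟨t0, ht0, ht1⟩ := sg1_surj hF hz
    let t : Fˣ := Units.mk0 t0 ht0
    have htz : (t : F) ^ (2 ^ (m + 1) + 1) = b / a := ht1
    set x := k * tG hF t * k⁻¹ with hx
    have hconj : ∀ d : F, x * (k * uG hF 0 d * k⁻¹) * x⁻¹ = k * uG hF 0 (b / a * d) * k⁻¹ := by
      intro d
      have h1 := tG_conj hF hm t 0 d
      rw [htz, mul_zero] at h1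
      rw [← h1, hx]
      group
    have hne : E ⊓ E.map (MulAut.conj x).toMonoidHom ≠ ⊥ := by
      rw [Subgroup.ne_bot_iff_exists_ne_one]
      refine ⟨⟨k * uG hF 0 b * k⁻¹, hb, ⟨k * uG hF 0 a * k⁻¹, ha, ?_⟩⟩, ?_⟩
      · show x * (k * uG hF 0 a * k⁻¹) * x⁻¹ = _
        rw [hconj]
        congr 3
        field_simp
      · intro h
        have h1 : k * uG hF 0 b * k⁻¹ = 1 := congrArg Subtype.val h
        have h2 : uG hF 0 b = 1 := by
          have : uG hF 0 b = k⁻¹ * (k * uG hF 0 b * k⁻¹) * k := by group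
          rw [this, h1]
          group
        exact z_ne_one hF hm hb0 h2
    have hxN := hTI x hne
    rw [Subgroup.mem_normalizer_iff] at hxN
    have h3 := (hxN (k * uG hF 0 c * k⁻¹)).mp hc
    rw [hconj] at h3
    have : b * c / a = b / a * c := by ring
    rw [this]
    exact h3
  -- the subfield
  let K : Subfield F :=
    { carrier := {c | a0 * c ∈ A}
      zero_mem' := by
        show a0 * 0 ∈ A
        rw [mul_zero]
        exact A.zero_mem
      one_mem' := by
        show a0 * 1 ∈ A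
        rwa [mul_one]
      add_mem' := by
        intro b c hb hc
        show a0 * (b + c) ∈ A
        rw [mul_add]
        exact A.add_mem hb hc
      neg_mem' := by
        intro b hb
        show a0 * (-b) ∈ A
        rw [mul_neg]
        exact A.neg_mem hb
      mul_mem' := by
        intro b c hb hc
        show a0 * (b * c) ∈ A
        have := hkey a0 (a0 * b) (a0 * c) ha0 ha0ne hb hc
        have e : a0 * b * (a0 * c) / a0 = a0 * (b * c) := by
          field_simp
        rwa [e] at this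
      inv_mem' := by
        intro b hb
        show a0 * b⁻¹ ∈ A
        by_cases hb0 : b = 0
        · rw [hb0, _root_.inv_zero, mul_zero]
          exact A.zero_mem
        have := hkey (a0 * b) a0 a0 hb (mul_ne_zero ha0ne hb0) ha0 ha0
        have e : a0 * a0 / (a0 * b) = a0 * b⁻¹ := by
          field_simp
        rwa [e] at this }
  have hcardK : Nat.card K = 2 ^ n := by
    rw [← hcardA]
    refine Nat.card_congr (Equiv.ofBijective (fun c : K => (⟨a0 * c, c.2⟩ : A)) ?_)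
    constructor
    · intro b c h
      have h1 : a0 * (b : F) = a0 * c := congrArg Subtype.val h
      exact Subtype.ext (mul_left_cancel₀ ha0ne h1)
    · rintro ⟨b, hb⟩
      refine ⟨⟨a0⁻¹ * b, ?_⟩, ?_⟩
      · show a0 * (a0⁻¹ * b) ∈ A
        rwa [mul_inv_cancel_left₀ ha0ne]
      · apply Subtype.ext
        show a0 * (a0⁻¹ * b) = b
        rw [mul_inv_cancel_left₀ ha0ne]
  haveI : Fintype K := Fintype.ofFinite K
  have h1 := Module.card_eq_pow_finrank (K := K) (V := F)
  rw [hF, ← Nat.card_eq_fintype_card (α := K), hcardK, ← pow_mul] at h1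
  exact ⟨_, Nat.pow_right_injective (le_refl 2) h1⟩

theorem ti_iff {n : ℕ} (hn : 2 ≤ n) :
    (∃ E : Subgroup (Cfsg.Sz F m), Cfsg.IsElementaryAbelian 2 E ∧ Nat.card E = 2 ^ n ∧
      ∀ x : Cfsg.Sz F m, E ⊓ E.map (MulAut.conj x).toMonoidHom ≠ ⊥ →
        x ∈ Subgroup.normalizer (E : Set (Cfsg.Sz F m))) ↔ n ∣ 2 * m + 1 := by
  constructor
  · rintro ⟨E, h1, h2, h3⟩
    exact dvd_of_ti hF hm hn h1 h2 h3
  · intro h
    exact ti_of_dvd hF hm (by omega) h

end Cfsg.Agent.Lib.Suzuki
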